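import Cfsg.Agent.H50.RG.Fin_m3
import Cfsg.Agent.H440.Bs.Rec_m3
import Cfsg.Agent.H365.Zsig
import Mathlib
import Cfsg.Agent.FastGrp
import Cfsg.Agent.Prune
set_option linter.all false

section
prune_inst 0x7f00000000000000000000000000000000000000000000000000000000000000000000000000000000000000000000000000000000000000000000000000000000000000000000000000000000000000003fffffffffffffffffffffffffffbeffbdffffffff

-- part: H94/RG/StatM
section
set_option linter.all false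
open scoped Cfsg.Agent.FastGrp

/-!
# S5715 in unbounded rank: the second moment argument with a bound `M e` depending on `e`

(`l01` of H50/RG/StatMain with `M : ℕ → ℕ`.)
-/

set_option autoImplicit false
set_option linter.unusedSectionVars false

namespace Cfsg.Agent.H94.RG.U

open Module Cfsg.Agent.H847.Bs Cfsg.Agent.H50.RG

/-- the number of elements of `G` without a good subspace of dimension `e ∈ I` -/
noncomputable def noGM {F V : Type} [Field F] [AddCommGroup V] [Module F V] (G : Subgroup (V ≃ₗ[F] V))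
    (TS : Submodule F V → Prop) (M : ℕ → ℕ) (I : Finset ℕ) : ℕ :=
  Nat.card {y : V ≃ₗ[F] V // y ∈ G ∧ ¬ ∃ e ∈ I, ∃ A, Gd TS e (M e) y A}

/-- the second moment argument -/
theorem l01M (F V : Type) [Field F] [Finite F] [AddCommGroup V] [Module F V] [Module.Finite F V]
    (G : Subgroup (V ≃ₗ[F] V)) (TS : Submodule F V → Prop) (k₀ : ℕ) (M : ℕ → ℕ) (I : Finset ℕ) (x : ℕ → ℝ) (η : ℝ)
    (hh : ∀ A B, A ≤ B → TS B → TS A) (hFT : FT G TS k₀) (hex : ∃ A, TS A ∧ finrank F A = k₀)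
    (hT : ∀ g ∈ G, ∀ A, TS A → TS (A.map (g : V →ₗ[F] V)))
    (hI : ∀ e ∈ I, 2 ≤ e ∧ 2 * e ≤ k₀)
    (hH1 : ∀ e ∈ I, ∀ e' ∈ I, e ≠ e' → ∀ y ∈ G, ∀ A A', TS A → TS A' → Irr y A → Irr y A' → finrank F A = e →
      finrank F A' = e' → TS (A ⊔ A'))
    (hH2 : ∀ e ∈ I, ∀ y ∈ G, ∀ s : Finset (Submodule F V), (∀ A ∈ s, Gd TS e (M e) y A) → s.card ≤ 2)
    (hH3 : ∀ e ∈ I, ∀ B, TS B → e ∣ finrank F B → finrank F B ≤ k₀)
    (hirr : ∀ d, 1 ≤ d → d * Nat.card {g : GL (Fin d) F // IrrM F g} ≤ Nat.card (GL (Fin d) F))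
    (hx : ∀ e ∈ I, x e * Nat.card (GL (Fin e) F) = Nat.card {g : GL (Fin e) F // IrrM F g ∧ BigM F e (M e) g})
    (hη0 : 0 ≤ η) (hη : ∀ e ∈ I, ∑ j ∈ Finset.range k₀, 1 / (((j + 1) * e : ℕ) : ℝ) ≤ η) (hη1 : η ≤ 1) :
    (noGM G TS M I : ℝ) * ((1 - η) * ∑ e ∈ I, x e) ^ 2 ≤
      Nat.card G * (2 * (∑ e ∈ I, x e) + 2 * η * (∑ e ∈ I, x e) ^ 2) := by
  classical
  have : Finite V := Module.finite_of_finite F
  have : Finite (V ≃ₗ[F] V) := finite_equiv
  have := Fintype.ofFinite G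
  have hG0 : (0 : ℝ) < Nat.card G := by exact_mod_cast Nat.card_pos
  -- the sets
  let P : (e : ℕ) → Set ((Fin e → F) ≃ₗ[F] (Fin e → F)) := fun e => PP F (Fin e → F) e (M e)
  let a : ℕ → G → ℕ := fun e y => Nat.card (AA TS (y : V ≃ₗ[F] V) (P e))
  let gd : ℕ → G → Set (Submodule F V) := fun e y => {A | Gd TS e (M e) (y : V ≃ₗ[F] V) A}
  have hfin : Finite (Submodule F V) :=
    Finite.of_injective (fun A : Submodule F V => (A : Set V)) SetLike.coe_injective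
  have hmem : ∀ (e : ℕ) (y : G) (A : Submodule F V), A ∈ AA TS (y : V ≃ₗ[F] V) (P e) ↔
      TS A ∧ finrank F A = e ∧ Irr (y : V ≃ₗ[F] V) A ∧ BigOn e (M e) (y : V ≃ₗ[F] V) A :=
    fun e y A => mem_AA_iff (by simp only [_root_.Module.finrank_fintype_fun_eq_card, _root_.Fintype.card_fin])
  have hsub : ∀ e (y : G), gd e y ⊆ AA TS (y : V ≃ₗ[F] V) (P e) := fun e y A hA =>
    (hmem e y A).2 ⟨hA.ts, hA.dim, hA.irr, hA.big⟩
  have hgl : ∀ e, (0 : ℝ) < Nat.card ((Fin e → F) ≃ₗ[F] (Fin e → F)) := fun e => by exact_mod_cast Nat.card_pos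
  have hxe : ∀ e ∈ I, x e * Nat.card ((Fin e → F) ≃ₗ[F] (Fin e → F)) = Nat.card (P e) := by
    intro e he
    have h1 := hx e he
    rw [card_PP, card_GLX] at h1
    exact h1
  have hx0 : ∀ e ∈ I, 0 ≤ x e := by
    intro e he
    by_contra h
    push Not at h
    have h1 := hxe e he
    have h2 : x e * Nat.card ((Fin e → F) ≃ₗ[F] (Fin e → F)) < 0 := mul_neg_of_neg_of_pos h (hgl e)
    rw [h1] at h2
    exact absurd (Nat.cast_nonneg (α := ℝ) (Nat.card (P e))) (not_le.2 h2)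
  -- first moments
  have hfr : ∀ {X : Type} [AddCommGroup X] [Module F X] [FiniteDimensional F X], finrank F X ≤ k₀ →
      Nonempty (Fr TS X) := fun h => exists_fr hh hex h
  have hfirst : ∀ e ∈ I, (∑ y : G, (a e y : ℝ)) = Nat.card G * x e := by
    intro e he
    have h1 := sum_AA hFT (X := Fin e → F) (by simp only [_root_.Module.finrank_fintype_fun_eq_card, _root_.Fintype.card_fin]; have := (hI e he).2; omega) hT
      (hfr (by simp only [_root_.Module.finrank_fintype_fun_eq_card, _root_.Fintype.card_fin]; have := (hI e he).2; omega)) (cj_PP (F := F) (X := Fin e → F) e (M e))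
    have h2 : ((∑ y : G, (a e y : ℝ))) * Nat.card ((Fin e → F) ≃ₗ[F] (Fin e → F)) =
        (Nat.card G * x e) * Nat.card ((Fin e → F) ≃ₗ[F] (Fin e → F)) := by
      rw [mul_assoc, hxe e he]
      exact_mod_cast h1
    exact mul_right_cancel₀ (hgl e).ne' h2
  -- mixed moments
  have hcross : ∀ e ∈ I, ∀ e' ∈ I, e ≠ e' → (∑ y : G, (a e y : ℝ) * a e' y) ≤ Nat.card G * (x e * x e') := by
    intro e he e' he' hne
    have h1 := cross hFT (X := Fin e → F) (X' := Fin e' → F)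
      (by simp only [_root_.Module.finrank_fintype_fun_eq_card, _root_.Fintype.card_fin]; have := (hI e he).2; have := (hI e' he').2; omega) hT
      (hfr (by rw [Module.finrank_prod]; simp only [_root_.Module.finrank_fintype_fun_eq_card, _root_.Fintype.card_fin]; have := (hI e he).2; have := (hI e' he').2; omega))
      (cj_PP (F := F) (X := Fin e → F) e (M e)) (cj_PP (F := F) (X := Fin e' → F) e' (M e')) (fun y hy A hA A' hA' => by
        have hA1 := (hmem e ⟨y, hy⟩ A).1 hA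
        have hA2 := (hmem e' ⟨y, hy⟩ A').1 hA'
        refine ⟨?_, hH1 e he e' he' hne y hy A A' hA1.1 hA2.1 hA1.2.2.1 hA2.2.2.1 hA1.2.1 hA2.2.1⟩
        rw [disjoint_iff]
        have hinv : _root_.Cfsg.Agent.H847.Bs.Inv y (A ⊓ A') := fun v hv => ⟨hA1.2.2.1.inv v hv.1, hA2.2.2.1.inv v hv.2⟩
        rcases hA1.2.2.1.min _ inf_le_left hinv with h | h
        · exact h
        · rcases hA2.2.2.1.min _ inf_le_right hinv with h' | h'
          · exact h'
          · exfalso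
            apply hne
            rw [← hA1.2.1, ← hA2.2.1, ← h, h'])
    have h2 : (∑ y : G, (a e y : ℝ) * a e' y) * (Nat.card ((Fin e → F) ≃ₗ[F] (Fin e → F)) *
        Nat.card ((Fin e' → F) ≃ₗ[F] (Fin e' → F))) ≤ (Nat.card G * (x e * x e')) *
          (Nat.card ((Fin e → F) ≃ₗ[F] (Fin e → F)) * Nat.card ((Fin e' → F) ≃ₗ[F] (Fin e' → F))) := by
      have h3 : (Nat.card G * (x e * x e')) * (Nat.card ((Fin e → F) ≃ₗ[F] (Fin e → F)) *
          Nat.card ((Fin e' → F) ≃ₗ[F] (Fin e' → F))) = Nat.card G * ((Nat.card (P e) : ℝ) * Nat.card (P e')) := by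
        rw [← hxe e he, ← hxe e' he']
        ring
      rw [h3]
      exact_mod_cast h1
    exact le_of_mul_le_mul_right h2 (mul_pos (hgl e) (hgl e'))
  -- bad flags
  have hbad : ∀ e ∈ I, ∀ d, 1 ≤ d → e + d ≤ k₀ →
      (∑ y : G, (Nat.card (BP TS (y : V ≃ₗ[F] V) (P e) (II F (Fin d → F))) : ℝ)) ≤ Nat.card G * (x e * (1 / d)) := by
    intro e he d hd hk
    have h1 := sum_BP hFT (X := Fin e → F) (X' := Fin d → F) (by simpa only [_root_.Module.finrank_fintype_fun_eq_card, _root_.Fintype.card_fin] using hk) hT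
      (hfr (by rw [Module.finrank_prod]; simpa using hk)) (cj_PP (F := F) (X := Fin e → F) e (M e))
      (cj_II (F := F) (X := Fin d → F))
    have h3 := hirr d hd
    rw [card_II, card_GLX] at h3
    have hd0 : (0 : ℝ) < d := by exact_mod_cast hd
    have h2 : (∑ y : G, (Nat.card (BP TS (y : V ≃ₗ[F] V) (P e) (II F (Fin d → F))) : ℝ)) *
        (Nat.card ((Fin e → F) ≃ₗ[F] (Fin e → F)) * Nat.card ((Fin d → F) ≃ₗ[F] (Fin d → F))) ≤
        (Nat.card G * (x e * (1 / d))) *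
          (Nat.card ((Fin e → F) ≃ₗ[F] (Fin e → F)) * Nat.card ((Fin d → F) ≃ₗ[F] (Fin d → F))) := by
      have h4 : (∑ y : G, (Nat.card (BP TS (y : V ≃ₗ[F] V) (P e) (II F (Fin d → F))) : ℝ)) *
        (Nat.card ((Fin e → F) ≃ₗ[F] (Fin e → F)) * Nat.card ((Fin d → F) ≃ₗ[F] (Fin d → F))) ≤
          Nat.card G * ((Nat.card (P e) : ℝ) * Nat.card (II F (Fin d → F))) := by exact_mod_cast h1
      refine h4.trans ?_
      have h5 : (d : ℝ) * Nat.card (II F (Fin d → F)) ≤ Nat.card ((Fin d → F) ≃ₗ[F] (Fin d → F)) := by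
        exact_mod_cast h3
      have h6 : (Nat.card (II F (Fin d → F)) : ℝ) ≤ (1 / d) * Nat.card ((Fin d → F) ≃ₗ[F] (Fin d → F)) := by
        rw [div_mul_eq_mul_div, one_mul, le_div_iff₀ hd0]
        linarith only [h5]
      calc (Nat.card G : ℝ) * ((Nat.card (P e) : ℝ) * Nat.card (II F (Fin d → F))) ≤
          Nat.card G * ((Nat.card (P e) : ℝ) * ((1 / d) * Nat.card ((Fin d → F) ≃ₗ[F] (Fin d → F)))) := by
            gcongr
        _ = _ := by rw [← hxe e he]; ring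
    exact le_of_mul_le_mul_right h2 (mul_pos (hgl e) (hgl d))
  -- good subspaces
  have hgd1 : ∀ e (y : G), Nat.card (gd e y) ≤ a e y := fun e y =>
    Nat.card_mono (Set.toFinite _) (hsub e y)
  have hgd2 : ∀ e ∈ I, ∀ y : G, Nat.card (gd e y) ≤ 2 := by
    intro e he y
    have h1 := hH2 e he y y.2 (Set.toFinite (gd e y)).toFinset (fun A hA => (Set.Finite.mem_toFinset _).1 hA)
    rwa [← Nat.card_eq_card_finite_toFinset] at h1
  have hgd3 : ∀ e ∈ I, ∀ y : G, a e y ≤ Nat.card (gd e y) +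
      ∑ j ∈ Finset.range k₀, if e + (j + 1) * e ≤ k₀ then
        Nat.card (BP TS (y : V ≃ₗ[F] V) (P e) (II F (Fin ((j + 1) * e) → F))) else 0 := by
    intro e he y
    have he2 := (hI e he).1
    -- the other subspaces
    have h1 : a e y ≤ Nat.card (gd e y) + Nat.card ↥(AA TS (y : V ≃ₗ[F] V) (P e) \ gd e y) := by
      have := Set.ncard_le_ncard_sdiff_add_ncard (AA TS (y : V ≃ₗ[F] V) (P e)) (gd e y) (Set.toFinite _)
      rw [add_comm]
      exact this
    refine h1.trans (Nat.add_le_add_left ?_ _)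
    have hch : ∀ A : ↥(AA TS (y : V ≃ₗ[F] V) (P e) \ gd e y), ∃ (j : Finset.range k₀) (B : Submodule F V),
        e + (j.1 + 1) * e ≤ k₀ ∧ (A.1, B) ∈ BP TS (y : V ≃ₗ[F] V) (P e) (II F (Fin ((j.1 + 1) * e) → F)) := by
      rintro ⟨A, hA, hng⟩
      have hA1 := (hmem e y A).1 hA
      have h2 : ¬ ∀ B, TS B → _root_.Cfsg.Agent.H847.Bs.Inv (y : V ≃ₗ[F] V) B → A < B → (∀ C, _root_.Cfsg.Agent.H847.Bs.Inv (y : V ≃ₗ[F] V) C → A ≤ C → C ≤ B →
          C = A ∨ C = B) → ¬ e ∣ finrank F B := fun h => hng ⟨hA1.1, hA1.2.1, hA1.2.2.1, hA1.2.2.2, h⟩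
      push Not at h2
      obtain ⟨B, hB, hBi, hAB, hmin, hdiv⟩ := h2
      have h3 := hH3 e he B hB hdiv
      obtain ⟨c, hc⟩ := hdiv
      have h4 : finrank F A < finrank F B := Submodule.finrank_lt_finrank_of_lt hAB
      rw [hA1.2.1] at h4
      have hc2 : 2 ≤ c := by
        by_contra hc2
        have : c ≤ 1 := by omega
        have : e * c ≤ e * 1 := Nat.mul_le_mul_left _ this
        omega
      obtain ⟨j, rfl⟩ : ∃ j, c = j + 2 := ⟨c - 2, by omega⟩
      have h5 : finrank F B = e + (j + 1) * e := by rw [hc]; ring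
      refine ⟨⟨j, Finset.mem_range.2 ?_⟩, B, by rw [← h5]; exact h3, ?_⟩
      · have : (j + 1) * 1 ≤ (j + 1) * e := Nat.mul_le_mul_left _ (by omega)
        omega
      · exact mem_BP hA hB hBi hAB hmin (by simpa only [_root_.Module.finrank_fintype_fun_eq_card, _root_.Fintype.card_fin] using h5)
    choose j B hjk hB using hch
    have h2 : Nat.card ↥(AA TS (y : V ≃ₗ[F] V) (P e) \ gd e y) ≤ Nat.card (Σ j : Finset.range k₀,
        {p : Submodule F V × Submodule F V // e + (j.1 + 1) * e ≤ k₀ ∧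
          p ∈ BP TS (y : V ≃ₗ[F] V) (P e) (II F (Fin ((j.1 + 1) * e) → F))}) := by
      refine Nat.card_le_card_of_injective (fun A => ⟨j A, (A.1, B A), hjk A, hB A⟩) ?_
      intro A A' h
      apply Subtype.ext
      have := congrArg (fun q : (Σ j : Finset.range k₀,
        {p : Submodule F V × Submodule F V // e + (j.1 + 1) * e ≤ k₀ ∧
          p ∈ BP TS (y : V ≃ₗ[F] V) (P e) (II F (Fin ((j.1 + 1) * e) → F))}) => q.2.1.1) h
      exact this
    refine h2.trans ?_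
    rw [Nat.card_sigma, ← Finset.sum_coe_sort (Finset.range k₀)]
    refine Finset.sum_le_sum fun j _ => ?_
    split_ifs with hc
    · refine le_of_eq (Nat.card_congr (Equiv.subtypeEquivRight fun p => by simp [hc]))
    · have : IsEmpty {p : Submodule F V × Submodule F V // e + (j.1 + 1) * e ≤ k₀ ∧
          p ∈ BP TS (y : V ≃ₗ[F] V) (P e) (II F (Fin ((j.1 + 1) * e) → F))} := ⟨fun p => hc p.2.1⟩
      rw [Nat.card_of_isEmpty]
  have hmean : ∀ e ∈ I, Nat.card G * ((1 - η) * x e) ≤ ∑ y : G, (Nat.card (gd e y) : ℝ) := by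
    intro e he
    have he2 := (hI e he).1
    have h1 : (∑ y : G, (a e y : ℝ)) ≤ (∑ y : G, (Nat.card (gd e y) : ℝ)) +
        ∑ j ∈ Finset.range k₀, Nat.card G * (x e * (1 / (((j + 1) * e : ℕ) : ℝ))) := by
      have h2 : (∑ y : G, (a e y : ℝ)) ≤ ∑ y : G, ((Nat.card (gd e y) : ℝ) +
          ∑ j ∈ Finset.range k₀, if e + (j + 1) * e ≤ k₀ then
            (Nat.card (BP TS (y : V ≃ₗ[F] V) (P e) (II F (Fin ((j + 1) * e) → F))) : ℝ) else 0) := by
        refine Finset.sum_le_sum fun y _ => ?_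
        have := hgd3 e he y
        have h3 : ((a e y : ℕ) : ℝ) ≤ ((Nat.card (gd e y) +
          ∑ j ∈ Finset.range k₀, if e + (j + 1) * e ≤ k₀ then
            Nat.card (BP TS (y : V ≃ₗ[F] V) (P e) (II F (Fin ((j + 1) * e) → F))) else 0 : ℕ) : ℝ) := by
          exact_mod_cast this
        push_cast at h3
        exact h3
      refine h2.trans ?_
      rw [Finset.sum_add_distrib, Finset.sum_comm]
      refine add_le_add le_rfl (Finset.sum_le_sum fun j _ => ?_)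
      split_ifs with hc
      · refine (hbad e he ((j + 1) * e) (Nat.mul_pos (by omega) (by omega)) hc)
      · rw [Finset.sum_const_zero]
        have := hx0 e he
        (clear * - he2 this; positivity)
    rw [hfirst e he, ← Finset.mul_sum, ← Finset.mul_sum] at h1
    have h2 := hη e he
    have h3 : x e * ∑ j ∈ Finset.range k₀, 1 / (((j + 1) * e : ℕ) : ℝ) ≤ x e * η :=
      mul_le_mul_of_nonneg_left h2 (hx0 e he)
    have h4 := mul_le_mul_of_nonneg_left h3 hG0.le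
    linarith only [h1, h4]
  -- the random variable
  let R : G → ℕ := fun y => ∑ e ∈ I, Nat.card (gd e y)
  have hS0 : 0 ≤ ∑ e ∈ I, x e := Finset.sum_nonneg hx0
  have hR1 : (Fintype.card G : ℝ) * ((1 - η) * ∑ e ∈ I, x e) ≤ ∑ y : G, (R y : ℝ) := by
    rw [← Nat.card_eq_fintype_card]
    have h1 : ∑ y : G, (R y : ℝ) = ∑ e ∈ I, ∑ y : G, (Nat.card (gd e y) : ℝ) := by
      rw [Finset.sum_comm]
      refine Finset.sum_congr rfl fun y _ => ?_
      simp only [R]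
      push_cast
      rfl
    rw [h1, Finset.mul_sum, Finset.mul_sum]
    exact Finset.sum_le_sum fun e he => hmean e he
  have hR2 : ∑ y : G, (R y : ℝ) ^ 2 ≤ Fintype.card G * (2 * (∑ e ∈ I, x e) + (∑ e ∈ I, x e) ^ 2) := by
    rw [← Nat.card_eq_fintype_card]
    have h1 : ∀ y : G, (R y : ℝ) ^ 2 = ∑ e ∈ I, ∑ e' ∈ I, (Nat.card (gd e y) : ℝ) * Nat.card (gd e' y) := by
      intro y
      simp only [R]
      push_cast
      rw [pow_two, Finset.sum_mul_sum]
    have h2 : ∑ y : G, (R y : ℝ) ^ 2 = ∑ e ∈ I, ∑ e' ∈ I, ∑ y : G, (Nat.card (gd e y) : ℝ) * Nat.card (gd e' y) := by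
      rw [Finset.sum_congr rfl fun y _ => h1 y, Finset.sum_comm]
      refine Finset.sum_congr rfl fun e _ => ?_
      rw [Finset.sum_comm]
    rw [h2]
    have h3 : ∀ e ∈ I, ∀ e' ∈ I, ∑ y : G, (Nat.card (gd e y) : ℝ) * Nat.card (gd e' y) ≤
        Nat.card G * (x e * x e' + if e = e' then 2 * x e else 0) := by
      intro e he e' he'
      by_cases h : e = e'
      · subst h
        rw [if_pos rfl]
        have h4 : ∑ y : G, (Nat.card (gd e y) : ℝ) * Nat.card (gd e y) ≤ ∑ y : G, 2 * (a e y : ℝ) := by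
          refine Finset.sum_le_sum fun y _ => ?_
          have h5 : (Nat.card (gd e y) : ℝ) ≤ 2 := by exact_mod_cast hgd2 e he y
          have h6 : (Nat.card (gd e y) : ℝ) ≤ a e y := by exact_mod_cast hgd1 e y
          exact mul_le_mul h5 h6 (Nat.cast_nonneg _) (by norm_num)
        rw [← Finset.mul_sum, hfirst e he] at h4
        refine h4.trans ?_
        have := mul_nonneg (hx0 e he) (hx0 e he)
        nlinarith only []
      · rw [if_neg h, add_zero]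
        refine le_trans ?_ (hcross e he e' he' h)
        refine Finset.sum_le_sum fun y _ => ?_
        have h5 : (Nat.card (gd e y) : ℝ) ≤ a e y := by exact_mod_cast hgd1 e y
        have h6 : (Nat.card (gd e' y) : ℝ) ≤ a e' y := by exact_mod_cast hgd1 e' y
        exact mul_le_mul h5 h6 (Nat.cast_nonneg _) (Nat.cast_nonneg _)
    refine (Finset.sum_le_sum fun e he => Finset.sum_le_sum fun e' he' => h3 e he e' he').trans (le_of_eq ?_)
    simp only [← Finset.mul_sum, Finset.sum_add_distrib]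
    congr 1
    rw [pow_two, Finset.sum_mul_sum, add_comm]
    congr 1
    · rw [Finset.mul_sum]
      refine Finset.sum_congr rfl fun e he => ?_
      rw [Finset.sum_ite_eq, if_pos he]
    · refine Finset.sum_congr rfl fun e _ => ?_
      rw [Finset.mul_sum]
  have h := second_moment R hS0 hη0 hη1 hR1 hR2
  rw [← Nat.card_eq_fintype_card] at h
  refine le_trans (mul_le_mul_of_nonneg_right ?_ (sq_nonneg _)) h
  have h1 : noGM G TS M I ≤ Nat.card {y : G // R y = 0} := by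
    unfold noGM
    refine Nat.card_le_card_of_injective (fun y => ⟨⟨y.1, y.2.1⟩, ?_⟩) fun y y' h => ?_
    · show ∑ e ∈ I, Nat.card (gd e ⟨y.1, y.2.1⟩) = 0
      rw [Finset.sum_eq_zero_iff]
      intro e he
      have : IsEmpty (gd e ⟨y.1, y.2.1⟩) := ⟨fun A => y.2.2 ⟨e, he, A.1, A.2⟩⟩
      exact Nat.card_of_isEmpty
    · apply Subtype.ext
      exact congrArg (fun z : {y : G // R y = 0} => (z.1 : V ≃ₗ[F] V)) h
  exact_mod_cast h1

end Cfsg.Agent.H94.RG.U
end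

-- part: H94/RG/Conj
section
set_option linter.all false
open scoped Cfsg.Agent.FastGrp

/-!
# S5715 in unbounded rank: the subgroups `Z` of the same order are conjugate

* `conj_of_free` : if `z` normalises the finite group `Q` and acts freely on it, all elements `u z`, `u ∈ Q`, are conjugate to `z`;
* `conj_cls` : the class lemma, abstract form;
* `conj_lin`, `conj_form` : linear groups, groups of isometries.
-/

set_option autoImplicit false
set_option linter.unusedSectionVars false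

namespace Cfsg.Agent.H94.RG.U

open Module Cfsg.Agent.H847.Bs Cfsg.Agent.H50.RG Cfsg.Agent.LieClassical.OrthCore
open Cfsg.Agent.H440.Bs (perp mem_perp mem_perp')
open Cfsg.Agent.H343.RG (rs rs_apply rs_pow irr_rs)

theorem conj_of_free {Γ : Type*} [Group Γ] {Q : Subgroup Γ} [Finite Q] {z u : Γ} (hn : ∀ v ∈ Q, z * v * z⁻¹ ∈ Q)
    (hf : ∀ v ∈ Q, z * v * z⁻¹ = v → v = 1) (hu : u ∈ Q) : ∃ v ∈ Q, v * z * v⁻¹ = u * z := by
  let f : Q → Q := fun v => ⟨v * (z * (v : Γ)⁻¹ * z⁻¹), Q.mul_mem v.2 (hn _ (Q.inv_mem v.2))⟩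
  have hinj : Function.Injective f := by
    intro v w h
    have h1 : (v : Γ) * (z * (v : Γ)⁻¹ * z⁻¹) = w * (z * (w : Γ)⁻¹ * z⁻¹) := congrArg Subtype.val h
    have h2 : z * ((w : Γ)⁻¹ * v) * z⁻¹ = (w : Γ)⁻¹ * v := by
      have h3 : (w : Γ)⁻¹ * v = z * (w : Γ)⁻¹ * z⁻¹ * (z * (v : Γ)⁻¹ * z⁻¹)⁻¹ := by
        rw [eq_mul_inv_iff_mul_eq, mul_assoc, h1]
        group
      conv_rhs => rw [h3]
      group
    have h4 := hf _ (Q.mul_mem (Q.inv_mem w.2) v.2) h2
    exact (Subtype.ext (inv_mul_eq_one.1 h4)).symm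
  obtain ⟨v, hv⟩ := (Finite.injective_iff_surjective.1 hinj) ⟨u, hu⟩
  refine ⟨v, v.2, ?_⟩
  have h1 : (v : Γ) * (z * (v : Γ)⁻¹ * z⁻¹) = u := congrArg Subtype.val hv
  rw [← h1]
  group

section

variable {F V : Type} [Field F] [Finite F] [AddCommGroup V] [Module F V] [Module.Finite F V]
variable {G : Subgroup (V ≃ₗ[F] V)} {TS : Submodule F V → Prop} {k₀ e : ℕ}

theorem ZS.ne_bot {Z : Subgroup (V ≃ₗ[F] V)} {A C : Submodule F V} (h : ZS e Z A C) (he : 1 ≤ e) : A ≠ ⊥ := by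
  rintro rfl
  have := h.dim
  rw [finrank_bot] at this
  omega

/-- an element trivial on `A` is trivial -/
theorem ZS.eq_one {Z : Subgroup (V ≃ₗ[F] V)} {A C : Submodule F V} (h : ZS e Z A C) (he : 1 ≤ e)
    {z : V ≃ₗ[F] V} (hz : z ∈ Z) (h1 : ∀ a ∈ A, z a = a) : z = 1 := by
  by_contra hne
  exact h.ne_bot he ((Submodule.eq_bot_iff _).2 fun a ha => h.fix z hz hne a ha (h1 a ha))

theorem ZS.orderOf_rs {Z : Subgroup (V ≃ₗ[F] V)} {A C : Submodule F V} (h : ZS e Z A C) (he : 1 ≤ e)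
    {z : V ≃ₗ[F] V} (hz : z ∈ Z) : orderOf (rs z A (h.inv z hz)) = orderOf z := by
  refine orderOf_eq_orderOf_iff.2 fun n => ⟨fun hn => ?_, fun hn => ?_⟩
  · refine h.eq_one he (Z.pow_mem hz n) fun a ha => ?_
    have h1 := rs_pow (h.inv z hz) n ⟨a, ha⟩
    rw [hn] at h1
    exact h1.symm
  · ext a
    have h1 := rs_pow (h.inv z hz) n a
    rw [h1, hn]
    rfl

theorem ZS.irr_of_ne {Z : Subgroup (V ≃ₗ[F] V)} {A C : Submodule F V} (h : ZS e Z A C) (he : 1 ≤ e)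
    {z : V ≃ₗ[F] V} (hz : z ∈ Z) (hz1 : z ≠ 1) : Irr z A := ⟨h.inv z hz, h.ne_bot he, h.irr z hz hz1⟩

/-- **the class lemma**, abstract form -/
theorem conj_cls (hU2 : U2) (hFT : FT G TS k₀) (he : 1 ≤ e) (hek : e ≤ k₀) {Z₁ Z₂ Q : Subgroup (V ≃ₗ[F] V)}
    {A₁ C₁ A₂ C₂ : Submodule F V} (h1 : ZS e Z₁ A₁ C₁) (h2 : ZS e Z₂ A₂ C₂) (t1 : TS A₁) (t2 : TS A₂)
    (hcard : Nat.card Z₁ = Nat.card Z₂) (hQG : Q ≤ G) (hQ : Free Z₂ Q)
    (hag : ∀ g ∈ G, (∀ a ∈ A₁, g a ∈ A₂) → ∀ z ∈ Z₁, ∀ z' ∈ Z₂, (∀ a ∈ A₂, (g * z * g⁻¹) a = z' a) →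
      (g * z * g⁻¹) * z'⁻¹ ∈ Q) :
    ∃ g ∈ G, ∀ z ∈ Z₁, g * z * g⁻¹ ∈ Z₂ := by
  have : Finite (V ≃ₗ[F] V) := finite_glV
  obtain ⟨z₁, rfl⟩ := h1.cyc
  obtain ⟨z₂, rfl⟩ := h2.cyc
  have hm1 := Subgroup.mem_zpowers z₁
  have hm2 := Subgroup.mem_zpowers z₂
  have hne1 : z₁ ≠ 1 := fun h => h1.ne (by rw [h, Subgroup.zpowers_one_eq_bot])
  have hne2 : z₂ ≠ 1 := fun h => h2.ne (by rw [h, Subgroup.zpowers_one_eq_bot])
  have hi1 := h1.irr_of_ne he hm1 hne1
  have hi2 := h2.irr_of_ne he hm2 hne2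
  rw [Nat.card_zpowers, Nat.card_zpowers] at hcard
  obtain ⟨f, k, hf⟩ := hU2 F A₁ A₂ (rs z₁ A₁ hi1.inv) (rs z₂ A₂ hi2.inv) (by rw [h1.dim, h2.dim]) (irr_rs hi1)
    (irr_rs hi2) (by rw [h1.orderOf_rs he hm1, h2.orderOf_rs he hm2, hcard])
  -- the element `g`
  obtain ⟨g, hg, hgf⟩ := fr_trans hFT (X := A₁) (by rw [h1.dim]; exact hek)
    ⟨A₁.subtype, A₁.injective_subtype, by rw [Submodule.range_subtype]; exact t1⟩
    ⟨A₂.subtype ∘ₗ (f : A₁ →ₗ[F] A₂), A₂.injective_subtype.comp f.injective, by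
      rw [LinearMap.range_comp, LinearEquiv.range, Submodule.map_top, Submodule.range_subtype]; exact t2⟩
  have hgf' : ∀ x : A₁, g (x : V) = (f x : V) := hgf
  have hgA : ∀ a ∈ A₁, g a ∈ A₂ := fun a ha => by
    rw [hgf' ⟨a, ha⟩]
    exact (f ⟨a, ha⟩).2
  set z' := z₂ ^ k with hz'
  have hz'm : z' ∈ Subgroup.zpowers z₂ := Subgroup.pow_mem _ hm2 k
  have hagr : ∀ a ∈ A₂, (g * z₁ * g⁻¹) a = z' a := by
    intro a ha
    obtain ⟨x, hx⟩ := f.surjective ⟨a, ha⟩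
    have hx' : g (x : V) = a := by rw [hgf' x, hx]
    have hx2 : g⁻¹ a = x := by
      rw [← hx']
      exact g.symm_apply_apply _
    show g (z₁ (g⁻¹ a)) = z' a
    rw [hx2]
    have h3 : g (z₁ (x : V)) = (f (rs z₁ A₁ hi1.inv x) : V) := hgf' (rs z₁ A₁ hi1.inv x)
    rw [h3, hf x, rs_pow, hx]
  have hu := hag g hg hgA z₁ hm1 z' hz'm hagr
  have hz'1 : z' ≠ 1 := by
    intro h
    apply hne1
    refine h1.eq_one he hm1 fun a ha => ?_
    have h3 := hagr (g a) (hgA a ha)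
    rw [h] at h3
    have h4 : g⁻¹ (g a) = a := g.symm_apply_apply _
    have h5 : g (z₁ (g⁻¹ (g a))) = g a := h3
    rw [h4] at h5
    exact g.injective h5
  obtain ⟨v, hv, hvz⟩ := conj_of_free (hQ.1 z' hz'm) (hQ.2 z' hz'm hz'1) hu
  refine ⟨v⁻¹ * g, G.mul_mem (G.inv_mem (hQG hv)) hg, fun z hz => ?_⟩
  obtain ⟨n, rfl⟩ := Subgroup.mem_zpowers_iff.1 hz
  have h3 : (v⁻¹ * g) * z₁ * (v⁻¹ * g)⁻¹ = z' := by
    have h4 : g * z₁ * g⁻¹ = v * z' * v⁻¹ := by rw [hvz]; group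
    calc (v⁻¹ * g) * z₁ * (v⁻¹ * g)⁻¹ = v⁻¹ * (g * z₁ * g⁻¹) * v := by group
      _ = z' := by rw [h4]; group
  have h4 : (v⁻¹ * g) * z₁ ^ n * (v⁻¹ * g)⁻¹ = z' ^ n := by
    rw [← h3, conj_zpow]
  rw [h4]
  exact Subgroup.zpow_mem _ hz'm n

/-- linear groups -/
theorem conj_lin (hU2 : U2) (hFT : FT G TS k₀) (he : 1 ≤ e) (hek : e ≤ k₀) {Z₁ Z₂ : Subgroup (V ≃ₗ[F] V)}
    {A₁ C₁ A₂ C₂ : Submodule F V} (h1 : ZS e Z₁ A₁ C₁) (h2 : ZS e Z₂ A₂ C₂) (t1 : TS A₁) (t2 : TS A₂)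
    (c1 : IsCompl A₁ C₁) (c2 : IsCompl A₂ C₂)
    (hcard : Nat.card Z₁ = Nat.card Z₂) (hQG : HomS A₂ ≤ G) (hQ : Free Z₂ (HomS A₂)) :
    ∃ g ∈ G, ∀ z ∈ Z₁, g * z * g⁻¹ ∈ Z₂ := by
  refine conj_cls hU2 hFT he hek h1 h2 t1 t2 hcard hQG hQ fun g hg hgA z hz z' hz' hag => ?_
  have htr : ∀ {Z : Subgroup (V ≃ₗ[F] V)} {A C : Submodule F V}, ZS e Z A C → IsCompl A C → ∀ z ∈ Z, ∀ x, z x - x ∈ A := by
    intro Z A C h c z hz x
    obtain ⟨a, ha, b, hb, rfl⟩ := Submodule.mem_sup.1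
      ((codisjoint_iff.1 c.codisjoint) ▸ (Submodule.mem_top : x ∈ (⊤ : Submodule F V)))
    rw [map_add, h.triv z hz b hb]
    have : z a + b - (a + b) = z a - a := by abel
    rw [this]
    exact A.sub_mem (h.inv z hz a ha) ha
  refine ⟨fun x => ?_, fun a ha => ?_⟩
  · have e1 : ((g * z * g⁻¹) * z'⁻¹) x - x = (g (z (g⁻¹ (z'⁻¹ x)) - g⁻¹ (z'⁻¹ x))) + (z'⁻¹ x - x) := by
      rw [map_sub]
      have : g (g⁻¹ (z'⁻¹ x)) = z'⁻¹ x := g.apply_symm_apply _
      rw [this]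
      show g (z (g⁻¹ (z'⁻¹ x))) - x = _
      abel
    rw [e1]
    exact A₂.add_mem (hgA _ (htr h1 c1 z hz _)) (htr h2 c2 _ (Z₂.inv_mem hz') x)
  · show (g * z * g⁻¹) (z'⁻¹ a) = a
    rw [hag _ (h2.inv _ (Z₂.inv_mem hz') a ha)]
    exact z'.apply_symm_apply a

/-- groups of isometries -/
theorem conj_form (hU2 : U2) {Φ : Frm F V} (hG : G ≤ Φ.Iso) (hFT : FT G Φ.TI k₀) (he : 1 ≤ e) (hek : e ≤ k₀)
    {Z₁ Z₂ : Subgroup (V ≃ₗ[F] V)} {A₁ A₁' C₁ A₂ A₂' C₂ : Submodule F V} (h1 : ZS e Z₁ A₁ C₁) (h2 : ZS e Z₂ A₂ C₂)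
    (o1 : Opp Φ A₁ A₁' C₁) (o2 : Opp Φ A₂ A₂' C₂) (hZ1 : Z₁ ≤ G) (hZ2 : Z₂ ≤ G)
    (hcard : Nat.card Z₁ = Nat.card Z₂) (hQ : Free Z₂ (G ⊓ RadG Φ A₂)) :
    ∃ g ∈ G, ∀ z ∈ Z₁, g * z * g⁻¹ ∈ Z₂ := by
  refine conj_cls hU2 hFT he hek h1 h2 o1.ti o2.ti hcard inf_le_left hQ fun g hg hgA z hz z' hz' hag => ?_
  have hmem : (g * z * g⁻¹) * z'⁻¹ ∈ G :=
    G.mul_mem (G.mul_mem (G.mul_mem hg (hZ1 hz)) (G.inv_mem hg)) (G.inv_mem (hZ2 hz'))
  have hfix : ∀ a ∈ A₂, ((g * z * g⁻¹) * z'⁻¹) a = a := by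
    intro a ha
    show (g * z * g⁻¹) (z'⁻¹ a) = a
    rw [hag _ (h2.inv _ (Z₂.inv_mem hz') a ha)]
    exact z'.apply_symm_apply a
  have htr : ∀ {Z : Subgroup (V ≃ₗ[F] V)} {A A' C : Submodule F V}, ZS e Z A C → Opp Φ A A' C → ∀ z ∈ Z,
      ∀ x ∈ perp Φ A, z x - x ∈ A := by
    intro Z A A' C h o z hz x hx
    rw [o.perp_eq] at hx
    obtain ⟨a, ha, b, hb, rfl⟩ := Submodule.mem_sup.1 hx
    rw [map_add, h.triv z hz b hb]
    have : z a + b - (a + b) = z a - a := by abel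
    rw [this]
    exact A.sub_mem (h.inv z hz a ha) ha
  refine Subgroup.mem_inf.2 ⟨hmem, hG hmem, fun x => ?_, fun x hx => ?_, hfix⟩
  · rw [mem_perp]
    intro a ha
    have h3 := (hG hmem).1 x a
    rw [hfix a ha] at h3
    have h4 := Φ.add_left (((g * z * g⁻¹) * z'⁻¹) x - x) x a
    rw [sub_add_cancel, h3] at h4
    linear_combination -h4
  · have hz'x : z'⁻¹ x ∈ perp Φ A₂ := by
      have h3 := htr h2 o2 _ (Z₂.inv_mem hz') x hx
      have h4 : z'⁻¹ x = (z'⁻¹ x - x) + x := by abel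
      rw [h4]
      refine (perp Φ A₂).add_mem ?_ hx
      rw [mem_perp]
      intro a ha
      exact o2.ti.1 _ h3 a ha
    have hgx : g⁻¹ (z'⁻¹ x) ∈ perp Φ A₁ := by
      rw [mem_perp]
      intro a ha
      rw [← (hG hg).1]
      have : g (g⁻¹ (z'⁻¹ x)) = z'⁻¹ x := g.apply_symm_apply _
      rw [this]
      exact hz'x _ (hgA a ha)
    have e1 : ((g * z * g⁻¹) * z'⁻¹) x - x = (g (z (g⁻¹ (z'⁻¹ x)) - g⁻¹ (z'⁻¹ x))) + (z'⁻¹ x - x) := by
      rw [map_sub]
      have : g (g⁻¹ (z'⁻¹ x)) = z'⁻¹ x := g.apply_symm_apply _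
      rw [this]
      show g (z (g⁻¹ (z'⁻¹ x))) - x = _
      abel
    rw [e1]
    exact A₂.add_mem (hgA _ (htr h1 o1 z hz _ hgx)) (htr h2 o2 _ (Z₂.inv_mem hz') x hx)

end

end Cfsg.Agent.H94.RG.U
end

-- part: H94/RG/CMix
section
set_option linter.all false
open scoped Cfsg.Agent.FastGrp

/-!
# S5715 in unbounded rank: the property `CMix` and its proof from the layer L

`CMix S κ ε` : for all but a proportion `ε` of the `y ∈ S` the cyclic group `⟨y⟩` contains a conjugate of one of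
finitely many subgroups `Z i`, where `R i dim V^(Z i) ≤ 2 dim V` for all complex representations `V` without fixed
vectors and `∑ 1 / R i ≤ κ`.
-/

set_option autoImplicit false
set_option linter.unusedSectionVars false

namespace Cfsg.Agent.H94.RG.U

open Module Cfsg.Agent.H847.Bs Cfsg.Agent.H50.RG Cfsg.Agent.LieClassical.OrthCore
open Cfsg.Agent.H440.Bs (perp mem_perp mem_perp')

/-- most cyclic subgroups contain a conjugate of one of few good subgroups -/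
def CMix (S : Type*) [Group S] (κ ε : ℝ) : Prop :=
  ∃ (ι : Type) (_ : Fintype ι) (Z : ι → Subgroup S) (R : ι → ℝ), (∀ i, 0 < R i) ∧ ∑ i, 1 / R i ≤ κ ∧
    (∀ (i : ι) (n : ℕ) (ρ : Representation ℂ S (Fin n → ℂ)), fixd ρ ⊤ = ⊥ → R i * finrank ℂ (fixd ρ (Z i)) ≤ 2 * n) ∧
    (Nat.card {y : S // ¬ ∃ (i : ι) (g : S), ∀ z ∈ Z i, g * z * g⁻¹ ∈ Subgroup.zpowers y} : ℝ) ≤ ε * Nat.card S

/-- the Frobenius trick, in a subgroup `G` of an ambient group -/
theorem frob_of_free {A : Type*} [Group A] [Finite A] {G Z Q₁ Q₂ : Subgroup A} (hZG : Z ≤ G)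
    (h1 : _root_.Cfsg.Agent.H50.RG.Free Z Q₁) (h2 : _root_.Cfsg.Agent.H50.RG.Free Z Q₂) (hgen : Q₁ ⊔ Q₂ = G) (n : ℕ) (ρ : Representation ℂ G (Fin n → ℂ))
    (h0 : fixd ρ ⊤ = ⊥) : Nat.card Z * finrank ℂ (fixd ρ (Z.subgroupOf G)) ≤ 2 * n := by
  have hQ1 : Q₁ ≤ G := le_sup_left.trans hgen.le
  have hQ2 : Q₂ ≤ G := le_sup_right.trans hgen.le
  have hF : ∀ {Q : Subgroup A}, _root_.Cfsg.Agent.H50.RG.Free Z Q → (∀ z ∈ Z.subgroupOf G, ∀ q ∈ Q.subgroupOf G, z * q * z⁻¹ ∈ Q.subgroupOf G) ∧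
      ∀ z ∈ Z.subgroupOf G, z ≠ 1 → ∀ q ∈ Q.subgroupOf G, z * q = q * z → q = 1 := by
    rintro Q ⟨ha, hb⟩
    refine ⟨fun z hz q hq => ?_, fun z hz hz1 q hq hc => ?_⟩
    · rw [Subgroup.mem_subgroupOf] at hz hq ⊢
      exact ha _ hz _ hq
    · rw [Subgroup.mem_subgroupOf] at hz hq
      have h3 : (z : A) ≠ 1 := fun h => hz1 (Subtype.ext h)
      have h4 : (z : A) * q = q * z := congrArg Subtype.val hc
      exact Subtype.ext (hb _ hz h3 _ hq (by rw [h4, mul_inv_cancel_right]))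
  obtain ⟨ha1, hb1⟩ := hF h1
  obtain ⟨ha2, hb2⟩ := hF h2
  have key := frob_trick ρ (Z.subgroupOf G) (Q₁.subgroupOf G) (Q₂.subgroupOf G) ha1 hb1 ha2 hb2
    (by rw [← Subgroup.subgroupOf_sup hQ1 hQ2, hgen, Subgroup.subgroupOf_self]) h0
  rwa [Nat.card_congr (Subgroup.subgroupOfEquivOfLe hZG).toEquiv, Module.finrank_fintype_fun_eq_card,
    Fintype.card_fin] at key

/-- the properties of the standard subgroups in dimension `e` -/
structure Std {F V : Type} [Field F] [AddCommGroup V] [Module F V] (G : Subgroup (V ≃ₗ[F] V))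
    (TS : Submodule F V → Prop) (e : ℕ) (St : Subgroup (V ≃ₗ[F] V) → Prop) : Prop where
  le : ∀ Z, St Z → Z ≤ G
  pd : ∀ Z, St Z → Nat.card Z ∈ pd (Nat.card F) e
  frob : ∀ Z, St Z → ∀ (n : ℕ) (ρ : Representation ℂ G (Fin n → ℂ)), fixd ρ ⊤ = ⊥ →
    Nat.card Z * finrank ℂ (fixd ρ (Z.subgroupOf G)) ≤ 2 * n
  cls : ∀ Z Z', St Z → St Z' → Nat.card Z = Nat.card Z' → ∃ g ∈ G, ∀ z ∈ Z, g * z * g⁻¹ ∈ Z'
  ex : ∀ M : ℕ, 2 ≤ M → ∀ y ∈ G, ∀ A, Gd TS e M y A → ∃ Z, St Z ∧ Z ≤ Subgroup.zpowers y ∧ M ≤ Nat.card Z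

/-- `CMix` from the standard subgroups -/
theorem cmix_of {F V : Type} [Field F] [Finite F] [AddCommGroup V] [Module F V] [Module.Finite F V]
    {G : Subgroup (V ≃ₗ[F] V)} {TS : Submodule F V → Prop} {I : Finset ℕ} {M : ℕ → ℕ}
    {St : ℕ → Subgroup (V ≃ₗ[F] V) → Prop} (hM : ∀ e ∈ I, 2 ≤ M e) (hSt : ∀ e ∈ I, Std G TS e (St e)) {κ ε : ℝ}
    (hbad : (noGM G TS M I : ℝ) ≤ ε * Nat.card G)
    (hκ : ∑ e ∈ I, ((pd (Nat.card F) e).card : ℝ) / M e ≤ κ) : CMix G κ ε := by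
  classical
  have : Finite (V ≃ₗ[F] V) := finite_glV
  let P : (Σ e : I, pd (Nat.card F) e) → Prop := fun p => ∃ Z, St p.1 Z ∧ Nat.card Z = p.2 ∧ M p.1 ≤ Nat.card Z
  let W : {p // P p} → Subgroup (V ≃ₗ[F] V) := fun p => p.2.choose
  have hW : ∀ p : {p // P p}, St p.1.1 (W p) ∧ Nat.card (W p) = p.1.2 ∧ M p.1.1 ≤ Nat.card (W p) :=
    fun p => p.2.choose_spec
  have hMpos : ∀ p : {p // P p}, 0 < M p.1.1 := fun p => by
    have := hM _ p.1.1.2
    omega
  refine ⟨{p // P p}, inferInstance, fun p => (W p).subgroupOf G, fun p => (Nat.card (W p) : ℝ), fun p => ?_, ?_, ?_, ?_⟩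
  · have h1 := hMpos p
    have h2 := (hW p).2.2
    have h3 : (0 : ℝ) < Nat.card (W p) := by exact_mod_cast (show 0 < Nat.card (W p) by omega)
    exact h3
  · refine le_trans ?_ hκ
    have h1 : ∑ p : {p // P p}, 1 / (Nat.card (W p) : ℝ) ≤ ∑ p : {p // P p}, 1 / (M p.1.1 : ℝ) := by
      refine Finset.sum_le_sum fun p _ => ?_
      have h3 : (0 : ℝ) < M p.1.1 := by exact_mod_cast hMpos p
      exact one_div_le_one_div_of_le h3 (by exact_mod_cast (hW p).2.2)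
    have h2 : ∑ p : {p // P p}, 1 / (M p.1.1 : ℝ) ≤ ∑ p : (Σ e : I, pd (Nat.card F) e), 1 / (M p.1 : ℝ) := by
      have e1 : ∑ p : {p // P p}, 1 / (M p.1.1 : ℝ) = ∑ p ∈ Finset.univ.filter P, 1 / (M p.1 : ℝ) :=
        (Finset.sum_subtype (Finset.univ.filter P) (by simp only [_root_.Finset.mem_filter, _root_.Finset.mem_univ, _root_.true_and, _root_.implies_true]) (fun p => 1 / (M p.1 : ℝ))).symm
      rw [e1]
      exact Finset.sum_le_sum_of_subset_of_nonneg (Finset.filter_subset _ _) fun p _ _ => by (clear * -; positivity)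
    refine h1.trans (h2.trans (le_of_eq ?_))
    rw [Fintype.sum_sigma, ← Finset.sum_coe_sort I]
    refine Finset.sum_congr rfl fun e _ => ?_
    have e2 : ∑ _y : pd (Nat.card F) e, 1 / (M e : ℝ) = ((pd (Nat.card F) e).card : ℝ) / M e := by
      rw [Finset.sum_const, Finset.card_univ, Fintype.card_coe, nsmul_eq_mul]
      ring
    exact e2
  · intro p n ρ h0
    have h1 : (Nat.card (W p) : ℝ) * finrank ℂ (fixd ρ ((W p).subgroupOf G)) ≤ 2 * n := by
      exact_mod_cast (hSt _ p.1.1.2).frob _ (hW p).1 n ρ h0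
    exact h1
  · refine le_trans ?_ hbad
    have h1 : Nat.card {y : G // ¬ ∃ (i : {p // P p}) (g : G), ∀ z ∈ (W i).subgroupOf G, g * z * g⁻¹ ∈
        Subgroup.zpowers y} ≤ noGM G TS M I := by
      unfold noGM
      refine Nat.card_le_card_of_injective (fun y => ⟨y.1.1, y.1.2, ?_⟩) fun y y' h => ?_
      · rintro ⟨e, he, A, hA⟩
        apply y.2
        obtain ⟨Z, hZ, hZy, hMZ⟩ := (hSt e he).ex (M e) (hM e he) y.1.1 y.1.2 A hA
        let p : {p // P p} := ⟨⟨⟨e, he⟩, ⟨Nat.card Z, (hSt e he).pd Z hZ⟩⟩, Z, hZ, rfl, hMZ⟩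
        obtain ⟨g, hg, hgg⟩ := (hSt e he).cls (W p) Z (hW p).1 hZ (hW p).2.1
        refine ⟨p, ⟨g, hg⟩, fun z hz => ?_⟩
        have h2 := hZy (hgg z (Subgroup.mem_subgroupOf.1 hz))
        obtain ⟨k, hk⟩ := Subgroup.mem_zpowers_iff.1 h2
        exact Subgroup.mem_zpowers_iff.2 ⟨k, Subtype.ext (by simpa only [_root_.SubgroupClass.coe_zpow, _root_.Subgroup.coe_mul, _root_.InvMemClass.coe_inv] using hk)⟩
      · have h4 : (y.1 : V ≃ₗ[F] V) = y'.1 := congrArg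
          (fun z : {y : V ≃ₗ[F] V // y ∈ G ∧ ¬ ∃ e ∈ I, ∃ A, Gd TS e (M e) y A} => z.1) h
        exact Subtype.ext (Subtype.ext h4)
    exact_mod_cast h1

/-- the common part: `k₀` is the bound for the frames, `par` the parity -/
theorem common (h02 : L02) (h03 : L03) (hU1 : U1) (ε : ℝ) (C par : ℕ) (hε : 0 < ε) : ∃ N₀ : ℕ,
    ∀ (F V : Type) [Field F] [Finite F] [AddCommGroup V] [Module F V] [Module.Finite F V]
    (G : Subgroup (V ≃ₗ[F] V)) (TS : Submodule F V → Prop) (k₀ : ℕ), N₀ ≤ finrank F V → k₀ ≤ finrank F V →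
    (finrank F V - 3) / 2 ≤ k₀ →
    (∀ A B, A ≤ B → TS B → TS A) → FT G TS k₀ → (∃ A, TS A ∧ finrank F A = k₀) →
    (∀ g ∈ G, ∀ A, TS A → TS (A.map (g : V →ₗ[F] V))) →
    (∀ y ∈ G, ∀ A A', TS A → TS A' → Irr y A → Irr y A' → finrank F A ≠ finrank F A' →
      finrank F A + finrank F A' < finrank F V → TS (A ⊔ A')) →
    (∀ e M, 3 ≤ e → e % 2 = par % 2 → 2 * e < finrank F V → 2 ≤ M → ∀ y ∈ G, ∀ s : Finset (Submodule F V),
      (∀ A ∈ s, Gd TS e M y A) → s.card ≤ 2) →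
    (∀ e, ¬ e ∣ (finrank F V - 1) / 2 → ¬ e ∣ (finrank F V + 1) / 2 → ∀ B, TS B → e ∣ finrank F B →
      finrank F B ≤ k₀) →
    (∀ e, 3 ≤ e → e % 2 = par % 2 → 4 * e + 8 ≤ finrank F V → ¬ e ∣ finrank F V → e ≤ k₀ →
      ∃ St, Std G TS e St) →
    CMix G (1 / ((finrank F V : ℝ) ^ 2 * Real.log (Nat.card F)) ^ C) ε := by
  set η : ℝ := min (1 / 2) (ε / 16) with hηdef
  have hη0 : 0 < η := by positivity
  obtain ⟨N₀, hN₀⟩ := hU1 (16 / ε) η C par hη0
  refine ⟨N₀ + 1, fun F V _ _ _ _ _ G TS k₀ hn hk1 hk2 hh hFT hex hT hH1 hH2 hH3 hSt => ?_⟩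
  have hfin : Finite (V ≃ₗ[F] V) := finite_glV
  have hq : 2 ≤ Nat.card F := Finite.one_lt_card
  obtain ⟨I, M, hI, hK⟩ := hN₀ (finrank F V) (Nat.card F) (by omega) hq
  set x : ℕ → ℝ := fun e => (Nat.card {g : GL (Fin e) F // IrrM F g ∧ BigM F e (M e) g} : ℝ) / Nat.card (GL (Fin e) F)
    with hx
  have hGL : ∀ e, (0 : ℝ) < Nat.card (GL (Fin e) F) := fun e => by exact_mod_cast Nat.card_pos
  have h1 := l01M F V G TS k₀ M I x η hh hFT hex hT
    (fun e he => by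
      obtain ⟨a0, a1, a2, a3, -⟩ := hI e he
      (clear * - hk2 a1 a3; omega))
    (fun e he e' he' hne y hy A A' hA hA' hi hi' hd hd' => hH1 y hy A A' hA hA' hi hi' (by omega) (by
      obtain ⟨a0, a1, a2, a3, -⟩ := hI e he
      obtain ⟨b0, b1, b2, b3, -⟩ := hI e' he'
      (clear * - hd hd' a3 b3; omega)))
    (fun e he y hy s hs => by
      obtain ⟨a0, a1, a2, a3, -⟩ := hI e he
      exact hH2 e (M e) a1 a2 (by omega) a0 y hy s hs)
    (fun e he B hB hdiv => by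
      obtain ⟨a0, a1, a2, a3, a4, a5, a6, -⟩ := hI e he
      exact hH3 e a5 a6 B hB hdiv)
    (fun d hd => h02 F d hd)
    (fun e he => by
      rw [hx]
      exact div_mul_cancel₀ _ (hGL e).ne')
    hη0.le
    (fun e he => by
      obtain ⟨a0, a1, a2, a3, a4, a5, a6, a7, a8, a9⟩ := hI e he
      refine le_trans (Finset.sum_le_sum_of_subset_of_nonneg (Finset.range_mono hk1) fun i _ _ => ?_) a8
      (clear * - a1; positivity))
    ((min_le_left _ _).trans (by norm_num))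
  have hS : 16 / ε ≤ ∑ e ∈ I, x e := by
    refine hK.trans (Finset.sum_le_sum fun e he => ?_)
    obtain ⟨a0, a1, a2, a3, a4, a5, a6, a7, a8, a9⟩ := hI e he
    have h2 := h03 F e (M e) a1 a0 a7
    have h3 : (Nat.card (GL (Fin e) F) : ℝ) ≤
        2 * e * Nat.card {g : GL (Fin e) F // IrrM F g ∧ BigM F e (M e) g} := by
      exact_mod_cast h2
    have he0 : (0 : ℝ) < e := by exact_mod_cast (show 0 < e by omega)
    rw [hx]
    rw [div_le_div_iff₀ (by positivity) (hGL e)]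
    linarith only [h3]
  have h2 := num_fin hε (Nat.cast_nonneg _) (Nat.cast_nonneg _) hη0.le (min_le_left _ _) (by
    have : η ≤ ε / 16 := min_le_right _ _
    linarith only [this]) hS h1
  have hch : ∀ e : ℕ, ∃ St, e ∈ I → Std G TS e St := by
    intro e
    by_cases he : e ∈ I
    · obtain ⟨a0, a1, a2, a3, a4, a5, a6, a7, a8, a9⟩ := hI e he
      obtain ⟨St, h⟩ := hSt e a1 a2 a3 a4 (by (clear * - hk2 a3; omega))
      exact ⟨St, fun _ => h⟩
    · exact ⟨fun _ => False, fun h => absurd h he⟩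
  choose St hSt' using hch
  refine cmix_of (fun e he => (hI e he).1) (fun e he => hSt' e he) h2 ?_
  have hn0 : (0 : ℝ) < finrank F V := by exact_mod_cast (show 0 < finrank F V by omega)
  have hlog : 0 < Real.log (Nat.card F) := Real.log_pos (by exact_mod_cast (show 1 < Nat.card F by omega))
  set L : ℝ := ((finrank F V : ℝ) ^ 2 * Real.log (Nat.card F)) ^ C with hL
  have hL0 : 0 < L := by (clear * - hn0 hlog; positivity)
  have h3 : ∀ e ∈ I, ((pd (Nat.card F) e).card : ℝ) / M e ≤ 1 / (finrank F V * L) := by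
    intro e he
    obtain ⟨a0, a1, a2, a3, a4, a5, a6, a7, a8, a9⟩ := hI e he
    have hM0 : (0 : ℝ) < M e := by exact_mod_cast (show 0 < M e by omega)
    rw [div_le_div_iff₀ hM0 (by (clear * - hn0 hlog; positivity))]
    linarith only [a9]
  refine (Finset.sum_le_sum h3).trans ?_
  rw [Finset.sum_const, nsmul_eq_mul]
  have h4 : (I.card : ℝ) ≤ finrank F V := by
    have : I.card ≤ (Finset.range (finrank F V)).card := Finset.card_le_card fun e he => by
      obtain ⟨a0, a1, a2, a3, -⟩ := hI e he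
      rw [Finset.mem_range]
      omega
    rw [Finset.card_range] at this
    exact_mod_cast this
  calc (I.card : ℝ) * (1 / (finrank F V * L)) ≤ finrank F V * (1 / (finrank F V * L)) :=
        mul_le_mul_of_nonneg_right h4 (by (clear * - hn0 hlog; positivity))
    _ = 1 / L := by field_simp

end Cfsg.Agent.H94.RG.U
end

section
prune_inst 0xbfffffbfbdf9dfdfff7e7ff7f9cffc39c7dfffafdffb4bffeeebbfffffb39239edffab1de0f8ff4e76e67c38b87853f97eefffe26bdc7ff3fd5ff45ffbee4ff5f7bd0971d79c340fbc0ffe03f077ce7f000000000000000000000000000000000200000000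

-- part: H94/RG/CFam
section
prune_inst 0x400000004004002000018000060001c0282000400000b0001014000000480cc2120004e21b070010810900444407a804811000010001000c020008000411900a084034062823cbd0436001f808000000000000000000000000000000000000000000000000
set_option linter.all false
open scoped Cfsg.Agent.FastGrp

/-!
# S5715 in unbounded rank: `CMix` for the four families of groups of large rank
-/

set_option autoImplicit false
set_option linter.unusedSectionVars false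

namespace Cfsg.Agent.H94.RG.U

open Module Cfsg.Agent.H847.Bs Cfsg.Agent.H50.RG Cfsg.Agent.LieClassical.OrthCore
open Cfsg.Agent.H440.Bs (perp mem_perp mem_perp')

/-- linear groups -/
def CSL : Prop := ∀ (ε : ℝ) (C : ℕ), 0 < ε → ∃ N₀ : ℕ, ∀ (F V : Type) [Field F] [Finite F] [AddCommGroup V]
  [Module F V] [Module.Finite F V], N₀ ≤ finrank F V →
  CMix (slV F V) (1 / ((finrank F V : ℝ) ^ 2 * Real.log (Nat.card F)) ^ C) ε

/-- symplectic groups -/
def CSp : Prop := ∀ (ε : ℝ) (C : ℕ), 0 < ε → ∃ N₀ : ℕ, ∀ (F V : Type) [Field F] [Finite F] [AddCommGroup V]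
  [Module F V] [Module.Finite F V] (Φ : Frm F V), IsSp Φ → N₀ ≤ finrank F V →
  CMix Φ.Iso (1 / ((finrank F V : ℝ) ^ 2 * Real.log (Nat.card F)) ^ C) ε

/-- unitary groups -/
def CSU : Prop := ∀ (ε : ℝ) (C : ℕ), 0 < ε → ∃ N₀ : ℕ, ∀ (F V : Type) [Field F] [Finite F] [AddCommGroup V]
  [Module F V] [Module.Finite F V] (r : ℕ) (Φ : Frm F V), IsHerm r Φ → N₀ ≤ finrank F V →
  CMix ↥(Φ.Iso ⊓ slV F V) (1 / ((finrank F V : ℝ) ^ 2 * Real.log (Nat.card F)) ^ C) ε

/-- orthogonal groups -/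
def COm : Prop := ∀ (ε : ℝ) (C : ℕ), 0 < ε → ∃ N₀ : ℕ, ∀ (F V : Type) [Field F] [Finite F] [AddCommGroup V]
  [Module F V] [Module.Finite F V] (Q : QuadraticForm F V), (frmQ Q).Nd → N₀ ≤ finrank F V →
  CMix (E Q) (1 / ((finrank F V : ℝ) ^ 2 * Real.log (Nat.card F)) ^ C) ε

/-- the standard subgroups, linear case -/
theorem std_lin (h16 : L16) (hU2 : U2) (hU3 : U3) {F V : Type} [Field F] [Finite F] [AddCommGroup V] [Module F V]
    [Module.Finite F V] {k₀ e : ℕ} (hFT : FT (slV F V) (Prp F V) k₀) (he : 2 ≤ e) (hek : e ≤ k₀)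
    (hdiv : ¬ e ∣ finrank F V) : ∃ St, Std (slV F V) (Prp F V) e St := by
  have : Finite (V ≃ₗ[F] V) := finite_glV
  refine ⟨fun Z => Z ≤ slV F V ∧ ∃ A C, Prp F V A ∧ IsCompl A C ∧ ZS e Z A C ∧ _root_.Cfsg.Agent.H50.RG.Free Z (HomS A) ∧ _root_.Cfsg.Agent.H50.RG.Free Z (HomS C),
    ⟨fun Z h => h.1, ?_, ?_, ?_, ?_⟩⟩
  · rintro Z ⟨_, A, C, _, _, h, _⟩
    exact h.pd
  · rintro Z ⟨hle, A, C, hA, hAC, h, h1, h2⟩ n ρ h0
    refine frob_of_free hle h1 h2 (h16 F V A C hAC (h.ne_bot (by omega)) ?_) n ρ h0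
    rintro rfl
    have h3 : A = ⊤ := by simpa only [_root_.bot_le, _root_.sup_of_le_left] using hAC.codisjoint.eq_top
    rw [h3] at hA
    unfold Prp at hA
    rw [finrank_top] at hA
    exact lt_irrefl _ hA
  · rintro Z Z' ⟨_, A, C, hA, hAC, h, _⟩ ⟨_, A', C', hA', hAC', h', h1, h2⟩ hcard
    have hC' : C' ≠ ⊥ := by
      rintro rfl
      have h3 : A' = ⊤ := by simpa only [_root_.bot_le, _root_.sup_of_le_left] using hAC'.codisjoint.eq_top
      rw [h3] at hA'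
      unfold Prp at hA'
      rw [finrank_top] at hA'
      exact lt_irrefl _ hA'
    exact conj_lin hU2 hFT (by omega) hek h h' hA hA' hAC hAC' hcard
      (le_sup_left.trans (h16 F V A' C' hAC' (h'.ne_bot (by omega)) hC').le) h1
  · intro M hM y hy A hA
    obtain ⟨Z, C, h1, h2, h3, h4, h5, h6⟩ := hU3 F V e M he hM hdiv y A hA
    exact ⟨Z, ⟨h1.trans (by rwa [Subgroup.zpowers_le]), A, C, hA.ts, h3, h4, h5, h6⟩, h1, h2⟩

theorem csl (h02 : L02) (h03 : L03) (h04 : L04) (h12 : L12) (h16 : L16) (hU1 : U1) (hU2 : U2) (hU3 : U3) : CSL := by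
  intro ε C hε
  obtain ⟨N₀, h⟩ := common h02 h03 hU1 ε C 1 hε
  refine ⟨N₀ + 1, fun F V _ _ _ _ _ hn => ?_⟩
  have hFT := h04 F V (by omega)
  refine h F V (slV F V) (Prp F V) (finrank F V - 1) (by omega) (by omega) (by omega)
    (fun A B hAB hB => (Submodule.finrank_mono hAB).trans_lt hB) hFT ?_ ?_ ?_ ?_ ?_ ?_
  · obtain ⟨A, hA⟩ := exists_sub (F := F) (V := V) (k := finrank F V - 1) (by omega)
    exact ⟨A, by unfold Prp; omega, hA⟩
  · intro g _ A hA
    unfold Prp at hA ⊢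
    rwa [LinearEquiv.finrank_map_eq]
  · intro y _ A A' _ _ _ _ _ hlt
    exact (Submodule.finrank_add_le_finrank_add_finrank A A').trans_lt hlt
  · intro e M he _ hlt hM y _ s hs
    exact (h12 F V e M (by omega) hlt y s hs).trans (by omega)
  · intro e _ _ B hB _
    unfold Prp at hB
    omega
  · intro e he _ _ hdiv hek
    exact std_lin h16 hU2 hU3 hFT (by omega) hek hdiv

/-- the standard subgroups, groups of isometries -/
theorem std_form (h15 : L15) (hU2 : U2) (hU4 : U4) {F V : Type} [Field F] [Finite F] [AddCommGroup V] [Module F V]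
    [Module.Finite F V] {Φ : Frm F V} {G : Subgroup (V ≃ₗ[F] V)} (hG : G ≤ Φ.Iso) {k₀ e : ℕ} (hFT : FT G Φ.TI k₀)
    (he : 2 ≤ e) (hek : e ≤ k₀) (hΦ : Cls Φ e)
    (hgen : ∀ A A' C : Submodule F V, finrank F A = e → Opp Φ A A' C → (G ⊓ RadG Φ A) ⊔ (G ⊓ RadG Φ A') = G) :
    ∃ St, Std G Φ.TI e St := by
  have : Finite (V ≃ₗ[F] V) := finite_glV
  refine ⟨fun Z => Z ≤ G ∧ ∃ A A' C, Opp Φ A A' C ∧ ZS e Z A C ∧ _root_.Cfsg.Agent.H50.RG.Free Z (G ⊓ RadG Φ A) ∧ _root_.Cfsg.Agent.H50.RG.Free Z (G ⊓ RadG Φ A'),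
    ⟨fun Z h => h.1, ?_, ?_, ?_, ?_⟩⟩
  · rintro Z ⟨_, A, A', C, _, h, _⟩
    exact h.pd
  · rintro Z ⟨hle, A, A', C, hO, h, h1, h2⟩ n ρ h0
    exact frob_of_free hle h1 h2 (hgen A A' C h.dim hO) n ρ h0
  · rintro Z Z₂ ⟨hle, A, A', C, hO, h, _⟩ ⟨hle₂, A₂, A₂', C₂, hO₂, h₂, h1, h2⟩ hcard
    exact conj_form hU2 hG hFT (by omega) hek h h₂ hO hO₂ hle hle₂ hcard h1
  · intro M hM y hy A hA
    obtain ⟨Z, A', C, hZ, hZM, hO, hZS, hZ1, hZ2⟩ := hU4 F V Φ e M hΦ hM y (hG hy) A hA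
    have hZG : Z ≤ G := hZ.trans (by rwa [Subgroup.zpowers_le])
    have hf1 : _root_.Cfsg.Agent.H50.RG.Free Z (G ⊓ RadG Φ A) := by
      refine ⟨fun z hz g hg => ?_, fun z hz hz1 g hg hc => ?_⟩
      · exact Subgroup.mem_inf.2 ⟨G.mul_mem (G.mul_mem (hZG hz) hg.1) (G.inv_mem (hZG hz)),
          rad_conj (hG (hZG hz)) (hZS.inv z hz) (hZS.inv z⁻¹ (inv_mem hz)) hg.2⟩
      · obtain ⟨h3, h4, h5⟩ := hZ2 z hz hz1
        exact h15 F V Φ e A A' C hΦ hA.dim hO z (hG (hZG hz)) (hZS.triv z hz) (hZS.inv z hz) (hZ1 z hz)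
          (hZS.irr z hz hz1) (hZS.fix z hz hz1) h3 h4 h5 g hg.2 hc
    have hf2 : _root_.Cfsg.Agent.H50.RG.Free Z (G ⊓ RadG Φ A') := by
      refine ⟨fun z hz g hg => ?_, fun z hz hz1 g hg hc => ?_⟩
      · exact Subgroup.mem_inf.2 ⟨G.mul_mem (G.mul_mem (hZG hz) hg.1) (G.inv_mem (hZG hz)),
          rad_conj (hG (hZG hz)) (hZ1 z hz) (hZ1 z⁻¹ (inv_mem hz)) hg.2⟩
      · obtain ⟨h3, h4, h5⟩ := hZ2 z hz hz1
        exact h15 F V Φ e A' A C hΦ (by rw [← hO.dim]; exact hA.dim) hO.symm z (hG (hZG hz)) (hZS.triv z hz)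
          (hZ1 z hz) (hZS.inv z hz) h3 h4 (hZS.irr z hz hz1) (hZS.fix z hz hz1) h5 g hg.2 hc
    exact ⟨Z, ⟨hZG, A, A', C, hO, hZS, hf1, hf2⟩, hZ, hZM⟩

/-- the common part for the groups of isometries -/
theorem common_form (h02 : L02) (h03 : L03) (h08 : L08) (h09 : L09) (h11 : L11) (h15 : L15) (hU1 : U1)
    (hU2 : U2) (hU4 : U4) (ε : ℝ) (C par : ℕ) (hε : 0 < ε) : ∃ N₀ : ℕ,
    ∀ (F V : Type) [Field F] [Finite F] [AddCommGroup V] [Module F V] [Module.Finite F V] (Φ : Frm F V)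
    (G : Subgroup (V ≃ₗ[F] V)), N₀ ≤ finrank F V → G ≤ Φ.Iso →
    (IsSp Φ ∨ (∃ r, IsHerm r Φ) ∨ (∃ Q : QuadraticForm F V, (frmQ Q).Nd ∧ Φ = frmQ Q)) →
    (∀ e, 3 ≤ e → e % 2 = par % 2 → Cls Φ e) →
    (∀ k₀, 2 * k₀ + 3 ≤ finrank F V → FT G Φ.TI k₀) →
    (∀ A A' C : Submodule F V, 3 ≤ finrank F A → 4 * finrank F A + 8 ≤ finrank F V → Opp Φ A A' C → C ≠ ⊥ →
      (G ⊓ RadG Φ A) ⊔ (G ⊓ RadG Φ A') = G) →
    CMix G (1 / ((finrank F V : ℝ) ^ 2 * Real.log (Nat.card F)) ^ C) ε := by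
  obtain ⟨N₀, h⟩ := common h02 h03 hU1 ε C par hε
  refine ⟨N₀ + 10, fun F V _ _ _ _ _ Φ G hn hG hty hcls hFT hgen => ?_⟩
  have hNd : Φ.Nd := (hcls (3 + (par + 1) % 2) (by omega) (by omega)).1
  obtain ⟨hex, hbd⟩ := h08 F V Φ hty
  refine h F V G Φ.TI ((finrank F V - 3) / 2) (by omega) (by omega) le_rfl (fun A B hAB hB => ti_mono hAB hB)
    (hFT _ (by omega)) (hex _ (by omega)) (fun g hg A hA => ti_map (hG hg) hA) ?_ ?_ ?_ ?_
  · intro y hy A A' hA hA' hi hi' hne _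
    exact h09 F V Φ hNd y (hG hy) A A' hA hA' hi hi' hne
  · intro e M he hpar _ hM y hy s hs
    exact h11 F V Φ e M (hcls e he hpar) hM y (hG hy) s hs
  · intro e h1 h2 B hB hdiv
    have h3 := hbd B hB
    by_contra hlt
    have h4 : finrank F B = (finrank F V - 1) / 2 ∨ finrank F B = (finrank F V + 1) / 2 := by omega
    rcases h4 with h4 | h4
    · exact h1 (h4 ▸ hdiv)
    · exact h2 (h4 ▸ hdiv)
  · intro e he hpar hle _ hek
    refine std_form h15 hU2 hU4 hG (hFT _ (by omega)) (by omega) hek (hcls e he hpar)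
      (fun A A' C hd hO => hgen A A' C (by omega) (by omega) hO ?_)
    rintro rfl
    have h1 : A ⊔ A' = ⊤ := by simpa only [_root_.bot_le, _root_.sup_of_le_left] using hO.compl.codisjoint.eq_top
    have h2 := Submodule.finrank_add_le_finrank_add_finrank A A'
    rw [h1, finrank_top, ← hO.dim] at h2
    omega

theorem csp (h02 : L02) (h03 : L03) (h05 : L05) (h08 : L08) (h09 : L09) (h11 : L11) (h15 : L15)
    (h17 : L17) (hU1 : U1) (hU2 : U2) (hU4 : U4) : CSp := by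
  intro ε C hε
  obtain ⟨N₀, h⟩ := common_form h02 h03 h08 h09 h11 h15 hU1 hU2 hU4 ε C 1 hε
  refine ⟨N₀, fun F V _ _ _ _ _ Φ hΦ hn => h F V Φ Φ.Iso hn le_rfl (Or.inl hΦ) ?_ (h05 F V Φ hΦ) ?_⟩
  · intro e he hpar
    exact ⟨hΦ.nd, by omega, Or.inl ⟨hΦ, Nat.odd_iff.2 hpar⟩⟩
  · intro A A' C hA _ hO hC
    refine h17 F V Φ A A' C hΦ hO ?_ hC
    rintro rfl
    rw [finrank_bot] at hA
    omega

theorem csu (h02 : L02) (h03 : L03) (h06 : L06) (h08 : L08) (h09 : L09) (h11 : L11) (h15 : L15)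
    (h18 : L18) (hU1 : U1) (hU2 : U2) (hU4 : U4) : CSU := by
  intro ε C hε
  obtain ⟨N₀, h⟩ := common_form h02 h03 h08 h09 h11 h15 hU1 hU2 hU4 ε C 0 hε
  refine ⟨N₀, fun F V _ _ _ _ _ r Φ hΦ hn => h F V Φ (Φ.Iso ⊓ slV F V) hn inf_le_left (Or.inr (Or.inl ⟨r, hΦ⟩)) ?_
    (h06 F V r Φ hΦ) ?_⟩
  · intro e he hpar
    exact ⟨hΦ.nd, by omega, Or.inr (Or.inl ⟨r, hΦ, Nat.even_iff.2 hpar⟩)⟩
  · intro A A' C hA _ hO hC
    exact h18 F V r Φ A A' C hΦ hO (by omega) hC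

theorem com (h02 : L02) (h03 : L03) (h07 : L07) (h08 : L08) (h09 : L09) (h11 : L11) (h15 : L15)
    (h19 : L19) (hU1 : U1) (hU2 : U2) (hU4 : U4) : COm := by
  intro ε C hε
  obtain ⟨N₀, h⟩ := common_form h02 h03 h08 h09 h11 h15 hU1 hU2 hU4 ε C 1 hε
  refine ⟨N₀, fun F V _ _ _ _ _ Q hQ hn => h F V (frmQ Q) (E Q) hn ?_ (Or.inr (Or.inr ⟨Q, hQ, rfl⟩)) ?_
    (h07 F V Q hQ) ?_⟩
  · intro g hg
    have hO := E_le_O hg
    refine ⟨fun x y => ?_, fun x => hO x⟩
    show QuadraticMap.polar Q (g x) (g y) = QuadraticMap.polar Q x y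
    unfold QuadraticMap.polar
    rw [← map_add, hO, hO, hO]
  · intro e he hpar
    exact ⟨hQ, by omega, Or.inr (Or.inr ⟨Q, rfl, Nat.odd_iff.2 hpar⟩)⟩
  · intro A A' C hA _ hO hC
    refine h19 F V Q A A' C hQ hO ?_ hC
    rintro rfl
    rw [finrank_bot] at hA
    omega

end Cfsg.Agent.H94.RG.U
end

-- part: H270/RG/Num
section
prune_inst 0x400000400206200000000008023002021000005000000000011440000000650200000400040000800100800000800002000000080400000000a000000000200000008000080080100080016003000000000000000000000000000000000041004000000000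
set_option linter.all false
open scoped Cfsg.Agent.FastGrp

/-!
# S5714, RG-L20: numerics (helper270)
-/

set_option autoImplicit false

namespace Cfsg.Agent.H270.RG

open Filter Topology

/-- the number of large divisors -/
theorem card_dvd_le {N n s : ℕ} (hN : 1 ≤ N) (hN' : N ≤ n) (hs0 : 1 ≤ s) (hs : n < (s + 1) * (s + 1)) (T : Finset ℕ)
    (hT : ∀ e ∈ T, 2 * s ≤ e ∧ e ∣ N) : T.card ≤ s / 2 + 1 := by
  have h1 : T.card ≤ (Finset.Icc 1 (s / 2 + 1)).card := by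
    refine Finset.card_le_card_of_injOn (fun e => N / e) ?_ ?_
    · intro e he
      obtain ⟨h2, h3⟩ := hT e he
      obtain ⟨f, rfl⟩ := h3
      have he0 : 0 < e := by omega
      have hf : 1 ≤ f := by
        rcases Nat.eq_zero_or_pos f with h | h
        · rw [h, mul_zero] at hN
          omega
        · exact h
      simp only [Nat.mul_div_cancel_left _ he0, Finset.coe_Icc, Set.mem_Icc]
      refine ⟨hf, ?_⟩
      have h4 : 2 * s * f ≤ e * f := Nat.mul_le_mul_right _ h2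
      by_contra hcon
      have h5 : s / 2 + 2 ≤ f := by omega
      have h6 : 2 * s * (s / 2 + 2) ≤ 2 * s * f := Nat.mul_le_mul_left _ h5
      have h7 : s ≤ 2 * (s / 2) + 1 := by omega
      have h8 : s * s ≤ s * (2 * (s / 2) + 1) := Nat.mul_le_mul_left _ h7
      linarith only [hs0, hs, hN', h4, h6, h8]
    · intro e he e' he' hee
      obtain ⟨h2, h3⟩ := hT e he
      obtain ⟨h2', h3'⟩ := hT e' he'
      have hee1 : N / e = N / e' := hee
      have h4 := Nat.div_mul_cancel h3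
      have h5 := Nat.div_mul_cancel h3'
      rw [← hee1] at h5
      have h6 : 0 < N / e := Nat.div_pos (Nat.le_of_dvd hN h3) (by omega)
      exact Nat.eq_of_mul_eq_mul_left h6 (h4.trans h5.symm)
  rwa [Nat.card_Icc, Nat.add_sub_cancel] at h1

/-- the contribution of the large divisors -/
theorem sum_dvd_le {N n s : ℕ} (hN : 1 ≤ N) (hN' : N ≤ n) (hs0 : 2 ≤ s) (hs : n < (s + 1) * (s + 1)) (T : Finset ℕ)
    (hT : ∀ e ∈ T, 2 * s ≤ e ∧ e ∣ N) : ∑ e ∈ T, 1 / (2 * e : ℝ) ≤ 1 / 4 := by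
  have h1 := card_dvd_le hN hN' (by omega) hs T hT
  have hs' : (0 : ℝ) < s := by
    have : 0 < s := by omega
    exact_mod_cast this
  calc ∑ e ∈ T, 1 / (2 * e : ℝ) ≤ ∑ _e ∈ T, 1 / (4 * s : ℝ) := by
        refine Finset.sum_le_sum fun e he => ?_
        have h2 : ((2 * s : ℕ) : ℝ) ≤ e := by exact_mod_cast (hT e he).1
        push_cast at h2
        exact one_div_le_one_div_of_le (by positivity) (by linarith only [h2])
    _ = T.card * (1 / (4 * s : ℝ)) := by rw [Finset.sum_const, nsmul_eq_mul]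
    _ ≤ s * (1 / (4 * s : ℝ)) := by
        refine mul_le_mul_of_nonneg_right ?_ (by positivity)
        have : T.card ≤ s := by omega
        exact_mod_cast this
    _ = 1 / 4 := by field_simp

/-- the harmonic sum -/
theorem sum_Ico_ge {s b : ℕ} (hsb : s ≤ b) :
    Real.log (b + 1) - 1 - Real.log s ≤ ∑ k ∈ Finset.Ico s b, 1 / ((k : ℝ) + 1) := by
  have h1 : ∀ m : ℕ, ((harmonic m : ℚ) : ℝ) = ∑ k ∈ Finset.range m, 1 / ((k : ℝ) + 1) := by
    intro m
    rw [harmonic]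
    push_cast
    exact Finset.sum_congr rfl fun k _ => by rw [one_div]
  have h2 := log_add_one_le_harmonic b
  have h3 := harmonic_le_one_add_log s
  rw [h1] at h2 h3
  rw [Finset.sum_Ico_eq_sub _ hsb]
  push_cast at h2
  linarith only [h3, h2]

/-- the partial sums of the harmonic series up to `n`, divided by `e` -/
theorem harm_le {n e : ℕ} {c : ℝ} (he : 0 < e) (hc : 1 + Real.log n ≤ c * e) :
    ∑ j ∈ Finset.range n, 1 / (((j + 1) * e : ℕ) : ℝ) ≤ c := by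
  have h1 : ∑ j ∈ Finset.range n, 1 / (((j + 1) * e : ℕ) : ℝ) = ((harmonic n : ℚ) : ℝ) / e := by
    rw [harmonic]
    push_cast
    rw [Finset.sum_div]
    refine Finset.sum_congr rfl fun j _ => ?_
    rw [one_div, mul_inv, div_eq_mul_inv]
  have he' : (0 : ℝ) < e := by exact_mod_cast he
  rw [h1, div_le_iff₀ he']
  exact (harmonic_le_one_add_log n).trans hc

/-- the main sum -/
theorem main_sum {n s p : ℕ} (hp : p ≤ 1) (hs2 : 2 ≤ s) (hs' : s * s ≤ n) (hs : n < (s + 1) * (s + 1))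
    (hsb : s ≤ n / 8 - 1) {I : Finset ℕ}
    (hI : ∀ k ∈ Finset.Ico s (n / 8 - 1), ¬ (2 * k + p) ∣ n → ¬ (2 * k + p) ∣ (n - 1) / 2 → ¬ (2 * k + p) ∣ (n + 1) / 2 →
      2 * k + p ∈ I) : Real.log n / 8 - 2 ≤ ∑ e ∈ I, 1 / (2 * e : ℝ) := by
  classical
  set b := n / 8 - 1 with hb
  set J : Finset ℕ := (Finset.Ico s b).image (fun k => 2 * k + p) with hJ
  have hJs : ∀ e ∈ J, 2 * s ≤ e := by
    intro e he
    obtain ⟨k, hk, rfl⟩ := Finset.mem_image.1 he
    have := (Finset.mem_Ico.1 hk).1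
    omega
  have hn3 : 3 ≤ n := by nlinarith only [hs2, hs']
  have hJsum : ∑ e ∈ J, 1 / (2 * e : ℝ) = ∑ k ∈ Finset.Ico s b, 1 / (2 * ((2 * k + p : ℕ) : ℝ)) := by
    rw [hJ, Finset.sum_image]
    intro k _ k' _ h
    have : 2 * k + p = 2 * k' + p := h
    omega
  have h1 : (1 / 4) * ∑ k ∈ Finset.Ico s b, 1 / ((k : ℝ) + 1) ≤ ∑ e ∈ J, 1 / (2 * e : ℝ) := by
    rw [hJsum, Finset.mul_sum]
    refine Finset.sum_le_sum fun k hk => ?_
    have hk1 : 2 ≤ k := by
      have := (Finset.mem_Ico.1 hk).1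
      omega
    have hk0 : (0 : ℝ) < 2 * ((2 * k + p : ℕ) : ℝ) := by
      have : 0 < 2 * (2 * k + p) := by omega
      exact_mod_cast this
    rw [div_mul_div_comm, one_mul]
    refine one_div_le_one_div_of_le hk0 ?_
    have : 2 * (2 * k + p) ≤ 4 * (k + 1) := by omega
    exact_mod_cast this
  -- excluded
  set T : ℕ → Finset ℕ := fun N => J.filter (fun e => e ∣ N) with hT
  have hTs : ∀ N, 1 ≤ N → N ≤ n → ∑ e ∈ T N, 1 / (2 * e : ℝ) ≤ 1 / 4 := by
    intro N hN hN'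
    refine sum_dvd_le hN hN' hs2 hs (T N) fun e he => ?_
    rw [hT, Finset.mem_filter] at he
    exact ⟨hJs e he.1, he.2⟩
  have hnn : ∀ e : ℕ, (0 : ℝ) ≤ 1 / (2 * e : ℝ) := fun e => by (clear * -; positivity)
  have hsub : J ⊆ I ∪ (T n ∪ (T ((n - 1) / 2) ∪ T ((n + 1) / 2))) := by
    intro e he
    by_cases h2 : e ∣ n
    · exact Finset.mem_union_right _ (Finset.mem_union_left _ (Finset.mem_filter.2 ⟨he, h2⟩))
    by_cases h3 : e ∣ (n - 1) / 2
    · exact Finset.mem_union_right _ (Finset.mem_union_right _ (Finset.mem_union_left _ (Finset.mem_filter.2 ⟨he, h3⟩)))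
    by_cases h4 : e ∣ (n + 1) / 2
    · exact Finset.mem_union_right _ (Finset.mem_union_right _ (Finset.mem_union_right _
        (Finset.mem_filter.2 ⟨he, h4⟩)))
    refine Finset.mem_union_left _ ?_
    obtain ⟨k, hk, rfl⟩ := Finset.mem_image.1 he
    exact hI k hk h2 h3 h4
  have hun : ∀ A B : Finset ℕ, ∑ e ∈ A ∪ B, 1 / (2 * e : ℝ) ≤ ∑ e ∈ A, 1 / (2 * e : ℝ) + ∑ e ∈ B, 1 / (2 * e : ℝ) := by
    intro A B
    rw [← Finset.sum_union_inter]
    exact le_add_of_nonneg_right (Finset.sum_nonneg fun e _ => hnn e)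
  have h2 : ∑ e ∈ J, 1 / (2 * e : ℝ) ≤ ∑ e ∈ I, 1 / (2 * e : ℝ) + (1 / 4 + (1 / 4 + 1 / 4)) := by
    refine (Finset.sum_le_sum_of_subset_of_nonneg hsub fun e _ _ => hnn e).trans ?_
    refine (hun _ _).trans (add_le_add le_rfl ?_)
    refine (hun _ _).trans (add_le_add (hTs _ (by omega) le_rfl) ?_)
    exact (hun _ _).trans (add_le_add (hTs _ (by omega) (by omega)) (hTs _ (by omega) (by omega)))
  -- the logarithms
  have h3 := sum_Ico_ge hsb
  have hb1 : (b : ℝ) + 1 = ((n / 8 : ℕ) : ℝ) := by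
    have : b + 1 = n / 8 := by omega
    exact_mod_cast this
  have hn0 : (0 : ℝ) < n := by
    have : 0 < n := by omega
    exact_mod_cast this
  have h4 : Real.log n - Real.log 16 ≤ Real.log (b + 1) := by
    rw [← Real.log_div hn0.ne' (by norm_num), hb1]
    refine Real.log_le_log (by positivity) ?_
    rw [div_le_iff₀ (by norm_num)]
    have : n ≤ (n / 8) * 16 := by omega
    exact_mod_cast this
  have h5 : Real.log s ≤ Real.log n / 2 := by
    have hs0 : (0 : ℝ) < s := by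
      have : 0 < s := by omega
      exact_mod_cast this
    have h6 : Real.log (s * s) ≤ Real.log n := by
      refine Real.log_le_log (by positivity) ?_
      exact_mod_cast hs'
    rw [Real.log_mul hs0.ne' hs0.ne'] at h6
    linarith only [h6]
  have h6 : Real.log 16 ≤ 4 := by
    have h7 : Real.log 16 = 4 * Real.log 2 := by
      rw [show (16 : ℝ) = 2 ^ 4 by norm_num, Real.log_pow]
      norm_num
    have h8 := Real.log_two_lt_d9
    rw [h7]
    linarith only [h8]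
  linarith only [h1, h2, h3, h4, h5, h6]

end Cfsg.Agent.H270.RG
end

-- part: H270/RG/NumU
section
prune_inst 0x4002022020000000080030020210000010000000001100400000006900000000000400008000008300008000028110000d0420000000a000000000200208028000000100e00080000001080000000000000000000000000000000041004000000000
set_option linter.all false
open scoped Cfsg.Agent.FastGrp

/-!
# S5715, U1: numerics in unbounded rank (helper270)
-/

set_option autoImplicit false

namespace Cfsg.Agent.H270.RG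

open Filter Topology Polynomial

/-- the divisors of `N` all of whose prime divisors are at least `B` -/
noncomputable def DB (B N : ℕ) : Finset ℕ :=
  @Finset.filter ℕ (fun m => ∀ r : ℕ, r.Prime → r ∣ m → B ≤ r) (Classical.decPred _) N.divisors

theorem mem_DB {B N m : ℕ} : m ∈ DB B N ↔ (m ∣ N ∧ N ≠ 0) ∧ ∀ r : ℕ, r.Prime → r ∣ m → B ≤ r := by
  classical
  rw [DB, Finset.mem_filter, Nat.mem_divisors]

theorem card_DB {B : ℕ} (hB : 2 ^ 16 ≤ B) (N : ℕ) : N ≠ 0 → (DB B N).card ^ 16 ≤ N := by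
  classical
  induction N using induction_on_primes with
  | zero => intro h; exact absurd rfl h
  | one =>
    intro _
    have h1 : DB B 1 ⊆ {1} := by
      intro m hm
      rw [mem_DB] at hm
      rw [Finset.mem_singleton]
      exact Nat.dvd_one.1 hm.1.1
    have h2 := Finset.card_le_card h1
    rw [Finset.card_singleton] at h2
    calc (DB B 1).card ^ 16 ≤ 1 ^ 16 := Nat.pow_le_pow_left h2 16
      _ = 1 := one_pow _
  | prime_mul p a hp ih =>
    intro h0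
    have ha : a ≠ 0 := fun h => h0 (by rw [h, mul_zero])
    have ih := ih ha
    have hmem : ∀ m, m ∈ DB B (p * a) → ¬ p ∣ m → m ∈ DB B a := by
      intro m hm hpm
      rw [mem_DB] at hm ⊢
      have hc : Nat.Coprime m p := ((hp.coprime_iff_not_dvd).2 hpm).symm
      exact ⟨⟨hc.dvd_of_dvd_mul_left hm.1.1, ha⟩, hm.2⟩
    rcases Nat.lt_or_ge p B with hpB | hpB
    · have h1 : DB B (p * a) ⊆ DB B a := by
        intro m hm
        refine hmem m hm fun hpm => ?_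
        have := (mem_DB.1 hm).2 p hp hpm
        omega
      calc (DB B (p * a)).card ^ 16 ≤ (DB B a).card ^ 16 := Nat.pow_le_pow_left (Finset.card_le_card h1) 16
        _ ≤ a := ih
        _ ≤ p * a := Nat.le_mul_of_pos_left _ hp.pos
    · have h1 : DB B (p * a) ⊆ DB B a ∪ (DB B a).image (fun m => p * m) := by
        intro m hm
        by_cases hpm : p ∣ m
        · obtain ⟨m', rfl⟩ := hpm
          refine Finset.mem_union_right _ (Finset.mem_image.2 ⟨m', ?_, rfl⟩)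
          rw [mem_DB] at hm ⊢
          exact ⟨⟨Nat.dvd_of_mul_dvd_mul_left hp.pos hm.1.1, ha⟩, fun r hr hrm => hm.2 r hr (hrm.mul_left p)⟩
        · exact Finset.mem_union_left _ (hmem m hm hpm)
      have h2 : (DB B (p * a)).card ≤ 2 * (DB B a).card := by
        refine (Finset.card_le_card h1).trans ((Finset.card_union_le _ _).trans ?_)
        have := Finset.card_image_le (s := DB B a) (f := fun m => p * m)
        omega
      calc (DB B (p * a)).card ^ 16 ≤ (2 * (DB B a).card) ^ 16 := Nat.pow_le_pow_left h2 16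
        _ = 2 ^ 16 * (DB B a).card ^ 16 := mul_pow _ _ _
        _ ≤ p * a := Nat.mul_le_mul (hB.trans hpB) ih

/-- the value of the cyclotomic polynomial -/
noncomputable def cy (q d : ℕ) : ℕ := ((cyclotomic d ℤ).eval (q : ℤ)).natAbs

theorem prod_cy {q e : ℕ} (hq : 1 ≤ q) (he : 0 < e) : ∏ d ∈ e.divisors, cy q d = q ^ e - 1 := by
  have h1 := congrArg (Polynomial.eval (q : ℤ)) (prod_cyclotomic_eq_X_pow_sub_one he ℤ)
  rw [Polynomial.eval_prod] at h1
  simp only [eval_sub, eval_pow, eval_X, eval_one] at h1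
  have h2 := congrArg Int.natAbs h1
  have h3 : (((q : ℤ) ^ e - 1)).natAbs = q ^ e - 1 := by
    have h4 : ((q : ℤ) ^ e - 1) = ((q ^ e - 1 : ℕ) : ℤ) := by
      have : 1 ≤ q ^ e := Nat.one_le_pow _ _ hq
      push_cast [Nat.cast_sub this]
      ring
    rw [h4, Int.natAbs_natCast]
  rw [h3] at h2
  rw [← h2]
  exact (map_prod Int.natAbsHom (fun d => (cyclotomic d ℤ).eval (q : ℤ)) e.divisors).symm

theorem cy_dvd {q d : ℕ} (hq : 1 ≤ q) (hd : 0 < d) : cy q d ∣ q ^ d - 1 := by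
  rw [← prod_cy hq hd]
  exact Finset.dvd_prod_of_mem _ (Nat.mem_divisors_self d hd.ne')

theorem cy_pos {q e : ℕ} (hq : 2 ≤ q) : 0 < cy q e := by
  rw [cy, Int.natAbs_pos]
  exact (cyclotomic_pos' e (by exact_mod_cast hq : (1 : ℤ) < q)).ne'

theorem cy_le {q e : ℕ} (hq : 2 ≤ q) (he : 3 ≤ e) : cy q e ≤ (q ^ 2) ^ e.totient := by
  have hq1 : (1 : ℝ) < q := by exact_mod_cast hq
  have h1 := cyclotomic_eval_lt_add_one_pow_totient (q := (q : ℝ)) he hq1
  have h2 : ((cy q e : ℕ) : ℝ) = (cyclotomic e ℝ).eval (q : ℝ) := by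
    have h3 : ((cy q e : ℕ) : ℤ) = (cyclotomic e ℤ).eval (q : ℤ) := by
      rw [cy, Int.natCast_natAbs, abs_of_pos (cyclotomic_pos' e (by exact_mod_cast hq : (1 : ℤ) < q))]
    have h4 : ((cy q e : ℕ) : ℝ) = (((cy q e : ℕ) : ℤ) : ℝ) := by push_cast; rfl
    rw [h4, h3, ← map_cyclotomic_int e ℝ]
    have h5 := Polynomial.eval_intCast_map (Int.castRingHom ℝ) (cyclotomic e ℤ) (q : ℤ)
    push_cast at h5
    rw [h5]
    rfl
  rw [← h2] at h1
  have h3 : (cy q e : ℝ) ≤ (((q ^ 2) ^ e.totient : ℕ) : ℝ) := by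
    refine h1.le.trans ?_
    push_cast
    refine pow_le_pow_left₀ (by positivity) ?_ _
    have h4 : q + 1 ≤ q ^ 2 := by nlinarith only [hq]
    exact_mod_cast h4
  exact_mod_cast h3

theorem pd_subset {q e : ℕ} (hq : 2 ≤ q) (he : 3 ≤ e) : Cfsg.Agent.H94.RG.U.pd q e ⊆ DB (e + 1) (cy q e) := by
  classical
  intro m hm
  rw [Cfsg.Agent.H94.RG.U.pd, Finset.mem_filter, Nat.mem_divisors] at hm
  obtain ⟨⟨hm1, hm2⟩, hm3⟩ := hm
  rw [mem_DB]
  refine ⟨⟨?_, (cy_pos hq).ne'⟩, ?_⟩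
  · rw [← prod_cy (by omega) (by omega), ← Nat.insert_self_properDivisors (by omega : e ≠ 0),
      Finset.prod_insert Nat.self_notMem_properDivisors] at hm1
    refine Nat.Coprime.dvd_of_dvd_mul_right ?_ hm1
    refine Nat.Coprime.prod_right fun d hd => ?_
    rw [Nat.mem_properDivisors] at hd
    have hd0 : 0 < d := Nat.pos_of_dvd_of_pos hd.1 (by omega)
    refine Nat.Coprime.symm (Nat.coprime_of_dvd ?_)
    intro r hr hrd hrm
    have h1 := hm3 r hr hrm
    have h2 : r ∣ q ^ d - 1 := hrd.trans (cy_dvd (by omega) hd0)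
    have h3 : ((q : ℕ) : ZMod r) ^ d = 1 := by
      have h4 : ((q ^ d - 1 : ℕ) : ZMod r) = 0 := (ZMod.natCast_eq_zero_iff _ _).2 h2
      rw [Nat.cast_sub (Nat.one_le_pow _ _ (by omega)), Nat.cast_one, Nat.cast_pow, sub_eq_zero] at h4
      exact h4
    have h4 := orderOf_dvd_of_pow_eq_one h3
    rw [h1] at h4
    have := Nat.le_of_dvd hd0 h4
    omega
  · intro r hr hrm
    have : Fact r.Prime := ⟨hr⟩
    have h1 := hm3 r hr hrm
    have h2 : ((q : ℕ) : ZMod r) ≠ 0 := by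
      intro h
      have h3 := pow_orderOf_eq_one ((q : ℕ) : ZMod r)
      rw [h1, h, zero_pow (by omega)] at h3
      exact zero_ne_one h3
    have h3 := ZMod.orderOf_dvd_card_sub_one h2
    rw [h1] at h3
    have h4 := Nat.le_of_dvd (by have := hr.two_le; omega) h3
    omega

theorem card_pd {q e : ℕ} (hq : 2 ≤ q) (he : 2 ^ 16 ≤ e + 1) :
    (Cfsg.Agent.H94.RG.U.pd q e).card ^ 8 ≤ q ^ e.totient := by
  have he3 : 3 ≤ e := by
    norm_num at he
    omega
  have h1 := Finset.card_le_card (pd_subset hq he3)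
  have h2 := card_DB he (cy q e) (cy_pos hq).ne'
  have h3 := cy_le hq he3
  have h4 : ((Cfsg.Agent.H94.RG.U.pd q e).card ^ 8) ^ 2 ≤ (q ^ e.totient) ^ 2 := by
    calc ((Cfsg.Agent.H94.RG.U.pd q e).card ^ 8) ^ 2 = (Cfsg.Agent.H94.RG.U.pd q e).card ^ 16 := by rw [← pow_mul]
      _ ≤ (DB (e + 1) (cy q e)).card ^ 16 := Nat.pow_le_pow_left h1 16
      _ ≤ (q ^ 2) ^ e.totient := h2.trans h3
      _ = (q ^ e.totient) ^ 2 := by rw [← pow_mul, ← pow_mul, mul_comm]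
  exact (Nat.pow_le_pow_iff_left two_ne_zero).1 h4

/-- polynomial against exponential -/
theorem exp_largeU (C : ℕ) : ∃ U : ℕ, 1 ≤ U ∧ ∀ u : ℕ, U ≤ u → 2 ^ 24 * (u + 1) ^ (4 * (16 * C + 12)) ≤ 2 ^ u := by
  have h := tendsto_pow_const_div_const_pow_of_one_lt (4 * (16 * C + 12)) (one_lt_two (α := ℝ))
  have hpos : (0 : ℝ) < 1 / (2 ^ 25) := by positivity
  obtain ⟨U, hU⟩ := eventually_atTop.1 (h.eventually (gt_mem_nhds hpos))
  refine ⟨U + 1, by omega, fun u hu => ?_⟩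
  have h1 := hU (u + 1) (by omega)
  rw [div_lt_div_iff₀ (by positivity) (by positivity), one_mul, pow_succ (2 : ℝ) u] at h1
  have h2 : ((2 ^ 24 * (u + 1) ^ (4 * (16 * C + 12)) : ℕ) : ℝ) ≤ ((2 ^ u : ℕ) : ℝ) := by
    push_cast
    push_cast at h1
    linarith only [h1]
  exact_mod_cast h2

/-- the main estimate -/
theorem boundU {C n q e s u : ℕ} (hq : 2 ≤ q) (hu0 : 1 ≤ u)
    (hU : 2 ^ 24 * (u + 1) ^ (4 * (16 * C + 12)) ≤ 2 ^ u)
    (hu : u * u ≤ s) (hu' : s < (u + 1) * (u + 1)) (hs : n < (s + 1) * (s + 1)) (he : 2 * s ≤ e) (he0 : 2 ^ 16 ≤ e + 1)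
    (hen : e ≤ n) :
    16 * e * (2 * (n * (Cfsg.Agent.H94.RG.U.pd q e).card * (n ^ 2 * q) ^ C)) ^ 2 ≤ q ^ e.totient := by
  have he00 : 0 < e := by
    norm_num at he0
    omega
  have hφ : u ≤ e.totient := by
    have h1 := Cfsg.Agent.H365.Zsig.le_two_mul_totient_sq (m := e) (by omega)
    by_contra hcon
    have h2 : e.totient ^ 2 < u * u := by
      rw [sq]
      exact Nat.mul_self_lt_mul_self (not_le.1 hcon)
    omega
  have hn4 : n ≤ (u + 1) ^ 4 := by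
    have h1 : s + 1 ≤ (u + 1) * (u + 1) := hu'
    have h2 : (s + 1) * (s + 1) ≤ ((u + 1) * (u + 1)) * ((u + 1) * (u + 1)) := Nat.mul_le_mul h1 h1
    have h3 : (u + 1) ^ 4 = ((u + 1) * (u + 1)) * ((u + 1) * (u + 1)) := by ring
    omega
  have h8C : 8 * C ≤ u := by
    have h1 : 2 ^ (8 * C) ≤ 2 ^ u := by
      refine le_trans ?_ hU
      calc 2 ^ (8 * C) ≤ 2 ^ (4 * (16 * C + 12)) := Nat.pow_le_pow_right (by norm_num) (by omega)
        _ ≤ (u + 1) ^ (4 * (16 * C + 12)) := Nat.pow_le_pow_left (by omega) _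
        _ ≤ 2 ^ 24 * (u + 1) ^ (4 * (16 * C + 12)) := Nat.le_mul_of_pos_left _ (by norm_num)
    exact (Nat.pow_le_pow_iff_right (by norm_num)).1 h1
  set φ := e.totient with hφdef
  set c := (Cfsg.Agent.H94.RG.U.pd q e).card with hc
  have h1 : c ^ 8 ≤ q ^ φ := card_pd hq he0
  have h2 : 2 ^ 24 * n ^ (16 * C + 12) ≤ q ^ φ := by
    calc 2 ^ 24 * n ^ (16 * C + 12) ≤ 2 ^ 24 * ((u + 1) ^ 4) ^ (16 * C + 12) :=
          Nat.mul_le_mul_left _ (Nat.pow_le_pow_left hn4 _)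
      _ = 2 ^ 24 * (u + 1) ^ (4 * (16 * C + 12)) := by rw [← pow_mul]
      _ ≤ 2 ^ u := hU
      _ ≤ q ^ u := Nat.pow_le_pow_left hq u
      _ ≤ q ^ φ := Nat.pow_le_pow_right (by omega) hφ
  have h3 : q ^ (8 * C) ≤ q ^ φ := Nat.pow_le_pow_right (by omega) (h8C.trans hφ)
  have h4 : 1 ≤ q ^ φ := Nat.one_le_pow _ _ (by omega)
  have key : (16 * e * (2 * (n * c * (n ^ 2 * q) ^ C)) ^ 2) ^ 4 ≤ (q ^ φ) ^ 4 := by
    calc (16 * e * (2 * (n * c * (n ^ 2 * q) ^ C)) ^ 2) ^ 4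
        ≤ (16 * n * (2 * (n * c * (n ^ 2 * q) ^ C)) ^ 2) ^ 4 :=
          Nat.pow_le_pow_left (Nat.mul_le_mul_right _ (Nat.mul_le_mul_left _ hen)) 4
      _ = (2 ^ 24 * n ^ (16 * C + 12)) * c ^ 8 * q ^ (8 * C) * 1 := by ring
      _ ≤ q ^ φ * q ^ φ * q ^ φ * q ^ φ :=
          Nat.mul_le_mul (Nat.mul_le_mul (Nat.mul_le_mul h2 h1) h3) h4
      _ = (q ^ φ) ^ 4 := by ring
  exact (Nat.pow_le_pow_iff_left (by norm_num)).1 key

/-- **S5715, U1** -/
theorem u1 : Cfsg.Agent.H94.RG.U.U1 := by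
  classical
  intro K η C par hη
  obtain ⟨U, hU1, hU⟩ := exp_largeU C
  -- `log` against the square root
  have hlog : ∀ᶠ n : ℕ in atTop, 1 + Real.log n ≤ η * Real.sqrt n := by
    have h1 := isLittleO_log_rpow_atTop (r := 1 / 2) (by norm_num)
    have h2 := h1.bound (show (0 : ℝ) < η / 2 by positivity)
    have h3 : ∀ᶠ x : ℝ in atTop, 1 ≤ η / 2 * Real.sqrt x := by
      have h4 : Tendsto (fun x : ℝ => η / 2 * Real.sqrt x) atTop atTop :=
        Real.tendsto_sqrt_atTop.const_mul_atTop (by positivity)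
      exact h4.eventually_ge_atTop 1
    have h5 : ∀ᶠ x : ℝ in atTop, 1 + Real.log x ≤ η * Real.sqrt x := by
      filter_upwards [h2, h3, eventually_ge_atTop 0] with x h2 h3 h0
      rw [← Real.sqrt_eq_rpow, Real.norm_eq_abs, Real.norm_eq_abs, abs_of_nonneg (Real.sqrt_nonneg x)] at h2
      have := (le_abs_self (Real.log x)).trans h2
      linarith only [h3, this]
    exact tendsto_natCast_atTop_atTop.eventually h5
  have hK : ∀ᶠ n : ℕ in atTop, K ≤ Real.log n / 8 - 2 := by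
    have h1 : Tendsto (fun n : ℕ => Real.log n) atTop atTop := Real.tendsto_log_atTop.comp tendsto_natCast_atTop_atTop
    filter_upwards [h1.eventually_ge_atTop (8 * (K + 2))] with n hn
    linarith only [hn]
  obtain ⟨N1, hN1⟩ := eventually_atTop.1 hlog
  obtain ⟨N2, hN2⟩ := eventually_atTop.1 hK
  refine ⟨max (max N1 N2) (max (U ^ 4) (2 ^ 30)), fun n q hn hq => ?_⟩
  have hn1 : N1 ≤ n := (le_max_left _ _).trans ((le_max_left _ _).trans hn)
  have hn2 : N2 ≤ n := (le_max_right _ _).trans ((le_max_left _ _).trans hn)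
  have hn3 : U ^ 4 ≤ n := (le_max_left _ _).trans ((le_max_right _ _).trans hn)
  have hn4 : 2 ^ 30 ≤ n := (le_max_right _ _).trans ((le_max_right _ _).trans hn)
  set s := Nat.sqrt n with hs
  set u := Nat.sqrt s with hu
  have hs1 : s * s ≤ n := Nat.sqrt_le n
  have hs2 : n < (s + 1) * (s + 1) := Nat.lt_succ_sqrt n
  have hu1 : u * u ≤ s := Nat.sqrt_le s
  have hu2 : s < (u + 1) * (u + 1) := Nat.lt_succ_sqrt s
  have hUu : U ≤ u := by
    rw [hu, Nat.le_sqrt, hs, Nat.le_sqrt]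
    calc U * U * (U * U) = U ^ 4 := by ring
      _ ≤ n := hn3
  have hs15 : 2 ^ 15 ≤ s := by
    rw [hs, Nat.le_sqrt]
    exact le_trans (by norm_num) hn4
  norm_num at hn4 hs15
  have hs30 : 30 ≤ s := by omega
  have hsb : s ≤ n / 8 - 1 := by
    have h1 : 30 * s ≤ n := (Nat.mul_le_mul_right _ hs30).trans hs1
    omega
  set p := par % 2 with hp
  have hp1 : p ≤ 1 := by omega
  set I : Finset ℕ := (Finset.range n).filter (fun e => 2 * s ≤ e ∧ e % 2 = par % 2 ∧ 4 * e + 8 ≤ n ∧ ¬ e ∣ n ∧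
    ¬ e ∣ (n - 1) / 2 ∧ ¬ e ∣ (n + 1) / 2) with hI
  refine ⟨I, fun e => Nat.sqrt (q ^ e.totient / (16 * e)), ?_, ?_⟩
  · intro e he
    rw [hI, Finset.mem_filter, Finset.mem_range] at he
    obtain ⟨he1, he2, he3, he4, he5, he6, he7⟩ := he
    have hb := boundU (C := C) (n := n) (q := q) (e := e) (s := s) (u := u) hq (by omega) (hU u hUu) hu1 hu2 hs2 he2
      (by norm_num; omega) (by omega)
    set X := n * (Cfsg.Agent.H94.RG.U.pd q e).card * (n ^ 2 * q) ^ C with hX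
    have hXM : 2 * X ≤ Nat.sqrt (q ^ e.totient / (16 * e)) := by
      rw [Nat.le_sqrt', Nat.le_div_iff_mul_le (by omega), mul_comm]
      exact hb
    have hX1 : 1 ≤ X := by
      rw [hX]
      have h1 : 1 ≤ (Cfsg.Agent.H94.RG.U.pd q e).card := by
        rw [Nat.one_le_iff_ne_zero, Finset.card_ne_zero]
        refine ⟨1, ?_⟩
        rw [Cfsg.Agent.H94.RG.U.pd, Finset.mem_filter, Nat.mem_divisors]
        refine ⟨⟨one_dvd _, ?_⟩, fun r hr h => absurd (Nat.dvd_one.1 h) hr.one_lt.ne'⟩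
        have : 2 ^ 1 ≤ q ^ e := (Nat.pow_le_pow_right (by norm_num) (by omega)).trans (Nat.pow_le_pow_left hq e)
        omega
      have h2 : 1 ≤ (n ^ 2 * q) ^ C := Nat.one_le_pow _ _ (by positivity)
      have h3 : 1 ≤ n := by omega
      exact Nat.mul_pos (Nat.mul_pos h3 h1) h2
    have hM2 : 2 ≤ Nat.sqrt (q ^ e.totient / (16 * e)) := by omega
    refine ⟨hM2, by omega, he3, he4, he5, he6, he7, ?_, ?_, ?_⟩
    · have h1 := Nat.sqrt_le' (q ^ e.totient / (16 * e))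
      calc 16 * e * Nat.sqrt (q ^ e.totient / (16 * e)) ^ 2 ≤ 16 * e * (q ^ e.totient / (16 * e)) :=
            Nat.mul_le_mul_left _ h1
        _ ≤ q ^ e.totient := Nat.mul_div_le _ _
    · refine harm_le (by omega) ((hN1 n hn1).trans (mul_le_mul_of_nonneg_left ?_ hη.le))
      rw [Real.sqrt_le_left (Nat.cast_nonneg e)]
      have h1 : n ≤ e ^ 2 := by nlinarith only [hs2, he2, he4]
      exact_mod_cast h1
    · have hlog0 : 0 ≤ Real.log q := Real.log_natCast_nonneg q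
      have hlog : Real.log q ≤ q := by
        have := Real.log_le_sub_one_of_pos (x := (q : ℝ)) (by positivity)
        linarith only [this]
      have h1 : ((n : ℝ) ^ 2 * Real.log q) ^ C ≤ ((n : ℝ) ^ 2 * q) ^ C :=
        pow_le_pow_left₀ (by (clear * - hn4; positivity)) (mul_le_mul_of_nonneg_left hlog (by positivity)) C
      calc (n : ℝ) * ((Cfsg.Agent.H94.RG.U.pd q e).card : ℝ) * ((n : ℝ) ^ 2 * Real.log q) ^ C
          ≤ (n : ℝ) * ((Cfsg.Agent.H94.RG.U.pd q e).card : ℝ) * ((n : ℝ) ^ 2 * q) ^ C :=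
            mul_le_mul_of_nonneg_left h1 (by (clear * - hn4; positivity))
        _ = ((X : ℕ) : ℝ) := by rw [hX]; push_cast; ring
        _ ≤ ((Nat.sqrt (q ^ e.totient / (16 * e)) : ℕ) : ℝ) := by
            have : X ≤ Nat.sqrt (q ^ e.totient / (16 * e)) := by omega
            exact_mod_cast this
  · refine (hN2 n hn2).trans (main_sum hp1 (by omega) hs1 hs2 hsb ?_)
    intro k hk h1 h2 h3
    rw [Finset.mem_Ico] at hk
    rw [hI, Finset.mem_filter, Finset.mem_range]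
    exact ⟨by (clear * - hk; omega), by omega, by omega, by omega, h1, h2, h3⟩

end Cfsg.Agent.H270.RG

private theorem dce_9785883b5117 : _root_.True := by
  try have : _root_.True := by simp only [_root_.Cfsg.Agent.H270.RG.cy.eq_1]
  try have : _root_.True := by simp only [_root_.Cfsg.Agent.H94.RG.U.pd.eq_1]
  try have : _root_.True := by simp only [_root_.Cfsg.Agent.H270.RG.DB.eq_1]
  exact _root_.True.intro
end
end
end
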